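import Cfsg.Agent.Tech.SmallOdd.Coset
import Cfsg.Agent.FusionBatch.ThompsonCenter
import Cfsg.Agent.FusionSys.LocalSystems
import Cfsg.Agent.Modules.Thompson

/-!
For odd `p` an element of `C_S(T)` can be changed within `T` to one centralized by a normal
subsystem over `T`.
-/

set_option autoImplicit false

open Cfsg Cfsg.FusionSystem
open Cfsg.Agent.FusionSys Cfsg.Agent.FusionAlperin
open Cfsg.Agent.FusionModel (wOf morph)
open Cfsg.Agent.FusionBatch.ThompsonCenter (jA jA_natural center_le_jA centerCondition_jA)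
open scoped IsMulCommutative

namespace Cfsg.Agent.Tech.SmallOdd

universe u

variable {Ω : Type u} [Group Ω] {S T T' : Subgroup Ω} {p : ℕ}
  {F : FusionSystem S} {E : FusionSystem T} {y : Ω}

/-- The Thompson subgroup. -/
abbrev jOf (P : Subgroup Ω) : Subgroup Ω := wOf (fun Q [Group Q] => jA.{u} Q) P

theorem centralizer_jOf_le (P : Subgroup Ω) [Finite P] {c : Ω} (hc : c ∈ P)
    (h : ∀ x ∈ jOf P, x * c = c * x) : c ∈ jOf P :=
  ((Modules.centerThompsonAOf_eq_centralizer P).ge ⟨hc, Subgroup.mem_centralizer_iff.2 h⟩).1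

theorem mem_jOf_of_central (P : Subgroup Ω) [Finite P] {c : Ω} (hc : c ∈ P)
    (h : ∀ x ∈ P, x * c = c * x) : c ∈ jOf P :=
  centralizer_jOf_le P hc fun x hx => h x (FusionModel.wOf_le P hx)

/-- The maps with an extension fixing `y`. -/
def fixSys (E' : FusionSystem T') (hT' : T' ≤ T) (hTS : T ≤ S)
    (hy : y ∈ centralizerIn S T) (F : FusionSystem S) : FusionSystem T' :=
  subSystem E' (fun P φ => Disp F y P φ 1)
    (fun {P g} hP hg => disp_conj ((hP.trans hT').trans hTS) hy.1 (hTS (hT' hg))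
      (comm_y hy (hT' hg)))
    (fun {P Q φ ψ} _ _ a b h => (Disp.comp a b h Q.one_mem fun _ => rfl).congr (fun _ => rfl)
      (by rw [one_mul]; exact (map_one ψ).symm))
    (fun {P φ} _ a ψ _ he => (Disp.inv (η := ψ) (x₀ := 1) a (map_one φ) he).congr
      (fun _ => rfl) (by simp))

theorem sylIn_of_le [Fact p.Prime] {G : Type*} [Group G] {R H A : Subgroup G} [Finite A]
    (h : SylIn p R A) (hRH : R ≤ H) (hHA : H ≤ A) : SylIn p R H := by
  have : Finite H := Finite.of_injective _ (Subgroup.inclusion_injective hHA)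
  obtain ⟨R₀, hR₀, hle⟩ := exists_sylIn_ge (p := p) hRH h.isPGroup
  obtain ⟨T₁, hT₁⟩ := h.2
  have hsub : R₀.subgroupOf A = (T₁ : Subgroup A) := T₁.3
    ((hR₀.isPGroup).of_equiv (Subgroup.subgroupOfEquivOfLe (hR₀.le.trans hHA)).symm)
    (hT₁ ▸ fun x hx => hle hx)
  have e : R₀ = R := le_antisymm (fun x hx => by
    have : (⟨x, hHA (hR₀.le hx)⟩ : A) ∈ (T₁ : Subgroup A) := hsub ▸ hx
    rwa [hT₁] at this) hle
  exact e ▸ hR₀

variable [Finite S] [Fact p.Prime]

/-- A system with a normal centric subgroup whose automorphisms fix `y` fixes `y`. -/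
theorem fixes_of_normal (hS : IsPGroup p S) (hF : F.IsSaturated p) (hE : E.IsNormalIn F p)
    (hy : y ∈ centralizerIn S T) (hT'T : T' ≤ T) {E' : FusionSystem T'}
    (hE's : E'.IsSaturated p) (hE' : E'.IsSubsystemOf E) {B : Subgroup Ω} (hBn : E'.IsNormal B)
    (hB : TCentric F T B) (hA : ∀ a ∈ E'.autGroup B, DispA F y B a 1) :
    ∀ (P : Subgroup Ω) (φ : P →* Ω), φ ∈ E'.Hom P → Disp F y P φ 1 := by
  have hEi := hE.1.2.2
  have hT := hEi.2.1
  have hTS := hT.1
  have hT'p := hS.to_le (hT'T.trans hTS)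
  have : Finite T' := finite_of_le ‹_› (hT'T.trans hTS)
  suffices h : E' ≤ fixSys E' hT'T hTS hy F from fun P φ hφ => (h P hφ).2
  refine Cfsg.Agent.FusionBatch.le_of_centric_radical_step hT'p hE's _ fun Q hQn hQc hQr _ => ?_
  have hQT' := hQn.1
  have hQT := hQT'.trans hT'T
  have hQS := hQT.trans hTS
  have : Finite Q := finite_of_le ‹_› hQS
  have hBQ : B ≤ Q := normal_le_centric_radical hT'p hQc hQr hBn
  have hQtc := tCentric_mono hB hBQ hQT
  have hEn := saturated_fullyNormalized hT'p hE's hQn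
  refine le_of_sylow_pprime (P := autInducedBy T' Q) (O := E'.autGroup Q)
    ⟨autInducedBy_le_autGroup E' hQT', hEn.2.2⟩ (autInducedBy_le_autGroup _ hQT')
    fun a ha ho => ?_
  have hah := autGroup_mem_hom E' hQT' ha
  obtain ⟨d, hdr, hd⟩ := exists_disp hS hF hE hy hQtc (hE' Q hah)
  have hdQ : d ∈ Q := (range_subtype_comp a).le hdr
  have hda : DispA F y Q a d := hd
  have hdc : ∀ x ∈ Q, x * d = d * x := fun x hx => by
    have h := Disp.commute hda (fun w hw => comm_y hy (hQT hw))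
      (fun w => comm_y hy (hQT (a w).2)) (a.symm ⟨x, hx⟩)
    simpa using h
  have hdB : d ∈ B := mem_of_commute hT hB (hQT hdQ) fun x hx => hdc x (hBQ hx)
  -- restrict to `B`
  have hres := restr_mem E' hBQ hah
  have : Finite B := finite_of_le ‹_› ((hBQ.trans hQS))
  have hr : (restr hBQ (Q.subtype.comp a.toMonoidHom)).range = B :=
    range_eq_of_image_le (E'.injective_of_mem hres) (by
      rintro _ ⟨x, rfl⟩
      exact sc_map_mem (isNormal_stronglyClosed hBn) hah (x := Subgroup.inclusion hBQ x) x.2)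
      le_rfl
  set aB := toIso E' hres hr
  have haB : aB ∈ E'.autGroup B := toIso_mem_autGroup E' hres hr
  have hBd : DispA F y B aB d := (hd.restr hBQ).congr (fun _ => rfl) rfl
  have hk := disp_div (hA _ haB) hBd B.one_mem hdB hB.1
  rw [inv_one, mul_one] at hk
  have haBE : aB ∈ E.autGroup B :=
    (mem_autGroup E hB.1).2 (hE' B (autGroup_mem_hom E' (hBQ.trans hQT') haB))
  have hfix : (a ⟨d, hdQ⟩ : Ω) = d := ker_fixed hS hF hE hy hB haBE hk hdB
  have hpow : ∀ n : ℕ, DispA F y Q (a ^ n) (d ^ n) := by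
    intro n
    induction n with
    | zero => simpa using dispA_one (F := F) hQS hy.1
    | succ n ih =>
      refine Disp.congr (hda.mul ih (Q.pow_mem hdQ n)) (fun x => ?_) ?_
      · show _ = ((((a * a ^ n) : MulAut Q) x : Q) : Ω)
        rw [← pow_succ']
        rfl
      · rw [show (⟨d ^ n, Q.pow_mem hdQ n⟩ : Q) = ⟨d, hdQ⟩ ^ n from Subtype.ext (by simp),
          map_pow, Subgroup.coe_pow, hfix, pow_succ']
  have h1 := hpow (orderOf a)
  rw [pow_orderOf_eq_one] at h1
  have hdk : d ∈ ker F T y Q :=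
    mem_ker_of_pow hS hT hy hQtc (hQT hdQ) ho ⟨T.pow_mem (hQT hdQ) _, h1⟩
  refine (mem_autGroup _ hQT').2 ⟨hah, ?_⟩
  refine Disp.congr ((DispA.inv hdk.2 hdQ).mul hda hdQ) (fun _ => rfl) ?_
  show (1 : Ω) = d⁻¹ * d
  rw [inv_mul_cancel]

/-- If the normalizer of the Thompson subgroup fixes `y`, so does the whole system. -/
theorem fixes_of_jOf (hp : p ≠ 2) (hS : IsPGroup p S) (hF : F.IsSaturated p)
    (hE : E.IsNormalIn F p) (hy : y ∈ centralizerIn S T) :
    ∀ (n m : ℕ) {T' : Subgroup Ω}, T' ≤ T → ∀ (E' : FusionSystem T'), E'.IsSaturated p →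
      E'.IsSubsystemOf E → Nat.card T' = n → (morph E').ncard = m →
      (∀ P, E'.IsCentric P → E'.core ≤ P → TCentric F T P) →
      (∀ (P : Subgroup Ω) (φ : P →* Ω), φ ∈ E'.normalizerHom (jOf T') P → Disp F y P φ 1) →
      ∀ (P : Subgroup Ω) (φ : P →* Ω), φ ∈ E'.Hom P → Disp F y P φ 1 := by
  intro n
  induction n using Nat.strong_induction_on with
  | _ n IHn =>
  intro m
  induction m using Nat.strong_induction_on with
  | _ m IHm =>
  intro T' hT'T E' hE's hE' hn hm hcen hJ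
  have hEi := hE.1.2.2
  have hT := hEi.2.1
  have hTS := hT.1
  have hT'S := hT'T.trans hTS
  have hT'p := hS.to_le hT'S
  have : Finite T' := finite_of_le ‹_› hT'S
  have hW : FusionModel.Natural (fun Q [Group Q] => jA.{u} Q) p := jA_natural p
  set B := E'.core with hBdef
  have hB : E'.IsNormal B := isNormal_core E'
  have hBT' := hB.1
  have hBN : T' ≤ Subgroup.normalizer (B : Set Ω) := isNormal_le_normalizer hB
  have hBsc := isNormal_stronglyClosed hB
  have hBfn := FusionCrit.isFullyNormalized_of_normal E' hBT' hBN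
  have : Finite B := finite_of_le ‹_› (hBT'.trans hT'S)
  have hJT : jOf T' ≤ T' := FusionModel.wOf_le T'
  have hJn : T' ≤ Subgroup.normalizer (jOf T' : Set Ω) :=
    FusionModel.le_normalizer_wOf_self hW hT'p
  by_cases hBc : E'.IsCentric B
  · -- the constrained case
    have hBtc := hcen B hBc le_rfl
    obtain ⟨v, hvN, hvA⟩ :=
      exists_fixed_coset hS hF hE hy hT'T hE's hE' hBtc hBT' hBfn
    have hvT' : (v : Ω) ∈ T' := hBT' v.2
    have hvc : ∀ x ∈ T', x * (v : Ω) = v * x := fun x hx => hvN x ⟨hx, hBN hx⟩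
    set A := E'.autGroup B
    have hyS : y ∈ S := hy.1
    let H : Subgroup (MulAut B) :=
      { carrier := {a | a ∈ A ∧ DispA F y B a 1}
        one_mem' := ⟨one_mem _, dispA_one (hBT'.trans hT'S) hyS⟩
        mul_mem' := fun {a b} ha hb => ⟨mul_mem ha.1 hb.1,
          Disp.congr (ha.2.mul hb.2 B.one_mem) (fun _ => rfl) (by
            show (1 : Ω) = 1 * ((a 1 : B) : Ω)
            rw [map_one, Subgroup.coe_one, one_mul])⟩
        inv_mem' := fun {a} ha => ⟨A.inv_mem ha.1,
          Disp.congr (ha.2.inv B.one_mem) (fun _ => rfl) (by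
            show (1 : Ω) = ((a⁻¹ 1 : B) : Ω)⁻¹
            rw [map_one, Subgroup.coe_one, inv_one])⟩ }
    let K : Subgroup (MulAut B) :=
      { carrier := {a | a v = v}
        one_mem' := rfl
        mul_mem' := fun {a b} (ha : a v = v) (hb : b v = v) => by
          show a (b v) = v
          rw [hb, ha]
        inv_mem' := fun {a} (ha : a v = v) => by
          show a⁻¹ v = v
          conv_lhs => rw [← ha]
          rw [MulAut.inv_apply_self] }
    have hPA : autInducedBy T' B ≤ A := autInducedBy_le_autGroup E' hBT'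
    have hPH : autInducedBy T' B ≤ H := fun a ha => by
      refine ⟨hPA ha, ?_⟩
      obtain ⟨t, ht, hte⟩ := mem_autInducedBy.1 ha
      exact dispA_of_inner (hBT'.trans hT'S) hyS (hT'S ht) (comm_y hy (hT'T ht)) hte
    have hsyl : SylIn p (autInducedBy T' B) A :=
      ⟨hPA, (saturated_fullyNormalized hT'p hE's hBfn).2.2⟩
    have hHK : H ≤ K := by
      refine le_of_sylow_pprime (sylIn_of_le hsyl hPH fun a ha => ha.1)
        (fun a ha => ?_) fun a ha ho => ?_
      · obtain ⟨t, ht, hte⟩ := mem_autInducedBy.1 ha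
        refine Subtype.ext ((hte v).trans ?_)
        rw [hvc t ht, mul_inv_cancel_right]
      · have haE : a ∈ E.autGroup B :=
          (mem_autGroup E hBtc.1).2 (hE' B (autGroup_mem_hom E' hBT' ha.1))
        have hk := disp_div ha.2 (hvA a ha.1) B.one_mem (B.mul_mem v.2 (B.inv_mem (a v).2)) hBtc.1
        rw [inv_one, mul_one] at hk
        set k : B := v * (a v)⁻¹ with hkdef
        have hfix : a k = k := Subtype.ext (ker_fixed hS hF hE hy hBtc haE hk k.2)
        have hav : a v = k⁻¹ * v := by rw [hkdef, mul_inv_rev, inv_inv, inv_mul_cancel_right]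
        have hpow : ∀ i : ℕ, (a ^ i) v = k⁻¹ ^ i * v := by
          intro i
          induction i with
          | zero => simp
          | succ i hi =>
            rw [pow_succ', MulAut.mul_apply, hi, map_mul, map_pow, map_inv, hfix, hav, ← mul_assoc,
              pow_succ]
        have h5 := hpow (orderOf a)
        rw [pow_orderOf_eq_one, MulAut.one_apply, right_eq_mul] at h5
        have h6 : ((k⁻¹ : B) : Ω) ^ orderOf a = 1 := by
          rw [← Subgroup.coe_pow, h5, Subgroup.coe_one]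
        have h7 : (k⁻¹ : B) = 1 :=
          Subtype.ext (eq_one_of_pow hS ((hBT'.trans hT'S) (k⁻¹ : B).2) ho h6)
        show a v = v
        rw [hav, h7, one_mul]
    have hvJ : (v : Ω) ∈ jOf T' := mem_jOf_of_central T' hvT' hvc
    have hfixJ : ∀ (P : Subgroup Ω) (φ : P →* Ω), φ ∈ E'.normalizerHom (jOf T') P →
        FusionModel.FixesElt (v : Ω) P φ := by
      rintro P φ ⟨-, -, -, ψ, hψ, hψe, hψJ⟩
      obtain ⟨ψ₂, hψ₂, hψ₂e, hψ₂B⟩ := hB.2 _ ψ hψ
      have hψ₂h := FusionModel.normalizerHom_of_mapsTo hψ₂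
        ((le_sup_right).trans le_sup_left) hJn (fun x hx => by
          have h := hψ₂e ⟨x, Subgroup.mem_sup_right hx⟩
          have h' : ψ₂ x = ψ ⟨x, Subgroup.mem_sup_right hx⟩ := by
            rw [← h]
            rfl
          rw [h']
          exact FusionAux.apply_mem_of_map_eq hψJ hx)
      have hres := restr_mem E' (le_sup_right : B ≤ (P ⊔ jOf T') ⊔ B) hψ₂
      have hr : (restr (le_sup_right : B ≤ (P ⊔ jOf T') ⊔ B) ψ₂).range = B := by
        rw [range_restr]
        exact hψ₂B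
      have haH : toIso E' hres hr ∈ H :=
        ⟨toIso_mem_autGroup E' hres hr, ((hJ _ _ hψ₂h).restr le_sup_right).congr (fun _ => rfl) rfl⟩
      have hψv : ψ₂ ⟨v, Subgroup.mem_sup_right v.2⟩ = v :=
        congrArg Subtype.val (hHK haH : toIso E' hres hr v = v)
      intro x hx
      have hxe : ψ₂ ⟨x, Subgroup.mem_sup_left (Subgroup.mem_sup_left x.2)⟩ = φ x :=
        (hψ₂e ⟨x, Subgroup.mem_sup_left x.2⟩).trans (hψe x)
      rcases hx with hx | hx
      · rw [hx, ← hxe, ← hψv]
        refine congrArg ψ₂ (Subtype.ext ?_) |>.trans rfl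
        exact hx
      · have h1 : ψ₂ ⟨x, Subgroup.mem_sup_left (Subgroup.mem_sup_left x.2)⟩ =
            ψ₂ ⟨v, Subgroup.mem_sup_right v.2⟩ := by rw [hxe, hψv, hx]
        rw [hx]
        exact (congrArg Subtype.val (E'.injective_of_mem hψ₂ h1)).symm
    have hall := FusionModel.fixes_of_normalizer (W := fun Q [Group Q] => jA.{u} Q)
      (fun Q _ _ _ => center_le_jA Q) hW (centerCondition_jA hp) _ _ hT'p E' hE's rfl rfl
      (v : Ω) hvT' hfixJ
    refine fixes_of_normal hS hF hE hy hT'T hE's hE' hB hBtc fun a ha => ?_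
    have hav : (a v : Ω) = v := hall B _ (autGroup_mem_hom E' hBT' ha) v (Or.inl rfl)
    exact Disp.congr (hvA a ha) (fun _ => rfl) (by rw [hav, mul_inv_cancel])
  -- the general case
  have hCnle : ¬ centralizerIn T' B ≤ B := fun h => hBc
    (centric_of_fullyCentralized (saturated_fullyNormalized hT'p hE's hBfn).1 h)
  suffices h : E' ≤ fixSys E' hT'T hTS hy F from fun P φ hφ => (h P hφ).2
  refine Cfsg.Agent.FusionBatch.le_of_centric_radical_step hT'p hE's _
    fun P hPn hPc hPr ih => ?_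
  have hPT' := hPn.1
  intro a ha
  have hah := autGroup_mem_hom E' hPT' ha
  refine (mem_autGroup _ hPT').2 ⟨hah, ?_⟩
  rcases hPT'.eq_or_lt with hPeq | hlt
  · subst hPeq
    exact hJ _ _ (FusionModel.mem_normalizerHom_wOf_self hW hT'p hah)
  have : Finite P := finite_of_le ‹_› (hPT'.trans hT'S)
  have hBP : B ≤ P := normal_le_centric_radical hT'p hPc hPr hB
  have hPnn : ¬ E'.IsNormal P := fun h => hBc (by
    have e : P = B := le_antisymm (le_sSup (s := {Q | E'.IsNormal Q}) h) hBP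
    exact e ▸ hPc)
  -- an element of `C_{N(P)}(B)` outside `B`
  obtain ⟨c, hcN, hcC, hcB⟩ : ∃ c ∈ normalizerIn T' P,
      c ∈ Subgroup.centralizer (B : Set Ω) ∧ c ∉ B := by
    by_cases hCP : centralizerIn T' B ≤ P
    · obtain ⟨c, hc, hcB⟩ := Set.not_subset.1 hCnle
      exact ⟨c, le_normalizerIn hPT' (hCP hc), hc.2, hcB⟩
    · have hX : P ⊔ centralizerIn T' B ≤ T' := sup_le hPT' (centralizerIn_le B)
      have : Finite ↥(P ⊔ centralizerIn T' B) := finite_of_le ‹_› hX
      obtain ⟨g, hg, hgN, hgP⟩ := exists_normalizer_mem_not_mem (hT'p.to_le hX)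
        (lt_of_le_of_ne le_sup_left fun h => hCP (h ▸ le_sup_right))
      have hPCn : P ≤ Subgroup.normalizer (centralizerIn T' B : Set Ω) :=
        hPT'.trans (FusionModel.le_normalizer_centralizerIn hBN)
      rw [← SetLike.mem_coe, Subgroup.coe_mul_of_left_le_normalizer_right P _ hPCn] at hg
      obtain ⟨q, hq, c, hc, rfl⟩ := hg
      refine ⟨c, ⟨hc.1, ?_⟩, hc.2, fun h => hgP (P.mul_mem hq (hBP h))⟩
      have h := (Subgroup.normalizer (P : Set Ω)).mul_mem
        ((Subgroup.normalizer _).inv_mem (Subgroup.le_normalizer hq)) hgN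
      simpa using h
  have claim : ∀ (k : ℕ) (V : Subgroup Ω), E'.IsFullyNormalized V → ¬ E'.IsNormal V →
      B ≤ normalizerIn T' V →
      (∃ c ∈ normalizerIn T' V, c ∈ Subgroup.centralizer (B : Set Ω) ∧ c ∉ B) →
      Nat.card P < Nat.card (normalizerIn T' V) →
      Nat.card T' - Nat.card (normalizerIn T' V) = k →
      ∀ (Q : Subgroup Ω) (φ : Q →* Ω), φ ∈ E'.normalizerHom V Q → Disp F y Q φ 1 := by
    intro k
    induction k using Nat.strong_induction_on with
    | _ k ihk =>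
    intro V hV hnV hBV hexc hcard hk Q φ hφ
    set N := normalizerIn T' V with hNdef
    have hNT' : N ≤ T' := normalizerIn_le V
    have : Finite N := finite_of_le ‹_› hNT'
    set E'' := FusionAux.normSys E' V hV.1 with hE''def
    have hE''s : E''.IsSaturated p := FusionModel.normSys_saturated hT'p hE's hV
    have hE'' : E''.IsSubsystemOf E := fun R χ hχ => hE' R hχ.1
    have hspec := FusionAux.normSys_spec E' V hV.1
    have hVN : V ≤ N := le_normalizerIn hV.1
    have hVn : E''.IsNormal V := normalizerSystem_isNormal hV.1 hspec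
    have hBn'' : E''.IsNormal B := by
      refine ⟨hBV, fun R χ hχ => ?_⟩
      obtain ⟨hχE, hRN, hχN, ψ, hψ, hψe, hψV⟩ := hχ
      obtain ⟨ψ₂, hψ₂, hψ₂e, hψ₂B⟩ := hB.2 _ ψ hψ
      have hle : R ⊔ B ≤ (R ⊔ V) ⊔ B := sup_le_sup_right le_sup_left B
      have hle' : (R ⊔ B) ⊔ V ≤ (R ⊔ V) ⊔ B :=
        sup_le hle (le_sup_right.trans le_sup_left)
      have hψ₃ := restr_mem E' hle hψ₂
      have hψ₄ := restr_mem E' hle' hψ₂
      have : Finite V := finite_of_le ‹_› hV.1
      have hval : ∀ w, restr hle ψ₂ w ∈ N := fun w => range_le_sup_of_le (restr hle ψ₂)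
        (fun z hz => by
          have e1 : restr hle ψ₂ z = χ ⟨z, hz⟩ :=
            (hψ₂e ⟨z, Subgroup.mem_sup_left hz⟩).trans (hψe ⟨z, hz⟩)
          rw [e1]
          exact hχN _)
        (fun z hz => hBV (hψ₂B.le ⟨_, hz, rfl⟩)) ⟨w, rfl⟩
      refine ⟨restr hle ψ₂, ⟨hψ₃, sup_le hRN hBV, hval, restr hle' ψ₂, hψ₄, fun _ => rfl,
        map_subgroupOf_eq_of_mem le_sup_right (E'.injective_of_mem hψ₄) fun z hz => ?_⟩,
        fun x => ?_, map_subgroupOf_eq_of_mem le_sup_right (E'.injective_of_mem hψ₃) fun z hz =>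
          hψ₂B.le ⟨_, hz, rfl⟩⟩
      · have e1 : restr hle' ψ₂ z = ψ ⟨z, Subgroup.mem_sup_right hz⟩ :=
          hψ₂e ⟨z, Subgroup.mem_sup_right hz⟩
        rw [e1]
        exact FusionAux.apply_mem_of_map_eq hψV hz
      · exact (hψ₂e ⟨x, Subgroup.mem_sup_left x.2⟩).trans (hψe x)
    have hcen'' : ∀ R, E''.IsCentric R → E''.core ≤ R → TCentric F T R := fun R hRc hR =>
      hcen R (isCentric_of_normalizerSystem hT'p hE's hV hspec
        ((le_sSup (s := {Q | E''.IsNormal Q}) hVn).trans hR) hRc)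
        ((le_sSup (s := {Q | E''.IsNormal Q}) hBn'').trans hR)
    have hJ'' : ∀ (R : Subgroup Ω) (χ : R →* Ω), χ ∈ E''.normalizerHom (jOf N) R →
        Disp F y R χ 1 := by
      intro R χ hχ
      by_cases hNe : N = T'
      · exact hJ R χ (FusionModel.normalizerHom_of_normSys hV.1 hNe hχ)
      set J₁ := jOf N
      set M := normalizerIn T' J₁
      obtain ⟨hχE, hRN, hχN, ψ, hψ, hψe, hψJ⟩ := hχ
      have hψE : ψ ∈ E'.Hom (R ⊔ J₁) := hψ.1
      have hJN : J₁ ≤ N := FusionModel.wOf_le N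
      have hJT' : J₁ ≤ T' := hJN.trans hNT'
      obtain ⟨c, hcN, hcC, hcB⟩ := hexc
      have hJB : ¬ J₁ ≤ B := fun h => hcB (h (centralizer_jOf_le N hcN fun x hx =>
        Subgroup.mem_centralizer_iff.1 hcC x (h hx)))
      obtain ⟨J₂, hJ12, hJ2⟩ := exists_fullyNormalized E' hJT'
      obtain ⟨θ, hθ, hθN, hθJ⟩ :=
        exists_normalizer_map_fullyNormalized hT'p hE's hJ2 hJ12
      have hNM : N < M := (FusionAux.lt_normalizerIn hT'p hNT' hNe).trans_le
        (le_inf (normalizerIn_le N) (FusionModel.normalizerIn_le_normalizer_wOf hW hT'p hNT'))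
      have : Finite M := finite_of_le ‹_› (normalizerIn_le J₁)
      have hBM : B ≤ M := hBV.trans hNM.le
      have hcM := hNM.le hcN
      have hθB : (restr hBM θ).range = B :=
        range_eq_of_image_le (E'.injective_of_mem (restr_mem E' hBM hθ)) (by
          rintro _ ⟨x, rfl⟩
          exact sc_map_mem hBsc hθ (x := Subgroup.inclusion hBM x) x.2) le_rfl
      have hBJ2 : B ≤ normalizerIn T' J₂ := fun b hb => by
        obtain ⟨x, rfl⟩ := hθB.ge hb
        exact hθN _
      have hc' : ∃ c' ∈ normalizerIn T' J₂,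
          c' ∈ Subgroup.centralizer (B : Set Ω) ∧ c' ∉ B := by
        refine ⟨θ ⟨c, hcM⟩, hθN _, Subgroup.mem_centralizer_iff.2 fun b hb => ?_,
          fun h => hcB ((sc_map_mem_iff hBsc hθ ⟨c, hcM⟩).1 h)⟩
        obtain ⟨x, rfl⟩ := hθB.ge hb
        show θ _ * θ _ = θ _ * θ _
        rw [← map_mul, ← map_mul]
        exact congrArg θ (Subtype.ext (Subgroup.mem_centralizer_iff.1 hcC x x.2))
      have hnJ2 : ¬ E'.IsNormal J₂ := fun h => hJB fun x hx =>
        (sc_map_mem_iff hBsc hθ ⟨x, le_normalizerIn hJT' hx⟩).1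
          (le_sSup (s := {Q | E'.IsNormal Q}) h
            (hθJ.le ⟨⟨x, le_normalizerIn hJT' hx⟩, hx, rfl⟩))
      have hMc : Nat.card N < Nat.card M := FusionAlperin.card_lt_of_lt (normalizerIn_le J₁) hNM
      have hM2 : Nat.card M ≤ Nat.card (normalizerIn T' J₂) := hJ2.2 J₁ (isConj_symm hJ12)
      have hle2 : Nat.card (normalizerIn T' J₂) ≤ Nat.card T' :=
        Subgroup.card_le_of_le (normalizerIn_le _)
      have hgood := ihk _ (by omega) J₂ hJ2 hnJ2 hBJ2 hc' (by omega) rfl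
      -- transport along `θ`
      set U := fixSys E' hT'T hTS hy F
      have hθU : θ ∈ U.Hom M := ih M (normalizerIn_le J₁) (hcard.trans hMc) hθ
      have hRJ : R ⊔ J₁ ≤ M := (sup_le (hRN.trans (normalizerIn_le _)) hJN).trans hNM.le
      have hψM : ∀ w, ψ w ∈ M := fun w => hNM.le (by
        have h := FusionAux.ext_image_le (R := N) hψJ (fun z => by
          rw [hψe]
          exact normalizerIn_le _ (hχN z)) w
        rwa [sup_eq_left.2 hJN] at h)
      have hresU := restr_mem U hRJ hθU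
      obtain ⟨η, hη, hηe⟩ := U.inv_mem hresU
      have hηv : ∀ w, η w ∈ R ⊔ J₁ := by
        rintro ⟨_, x, rfl⟩
        rw [hηe]
        exact x.2
      have hβ := E'.comp_mem (E'.comp_mem hη.1 hψE hηv) hθ fun w => hψM _
      obtain ⟨β, hβ', hβe⟩ : ∃ β ∈ E'.Hom (restr hRJ θ).range,
          ∀ x, β ⟨restr hRJ θ x, x, rfl⟩ = θ ⟨ψ x, hψM x⟩ :=
        ⟨_, hβ, fun x => congrArg θ (Subtype.ext (congrArg ψ (Subtype.ext (hηe x))))⟩
      have hJ2A : J₂ ≤ (restr hRJ θ).range := fun z hz => by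
        obtain ⟨x, hx, rfl⟩ := hθJ.ge hz
        exact ⟨⟨x, Subgroup.mem_sup_right hx⟩, rfl⟩
      have hβN : β ∈ E'.normalizerHom J₂ (restr hRJ θ).range := by
        refine (FusionAux.normSys_spec E' J₂ hJ2.1 _).le
          (mem_normalizerSystem hJ2.1 (FusionAux.normSys_spec E' J₂ hJ2.1) hJ2A
            (by rintro _ ⟨x, rfl⟩; exact hθN _) hβ' ?_ ?_)
        · rintro ⟨_, x, rfl⟩
          rw [hβe]
          exact hθN _
        · rintro ⟨_, x, rfl⟩ hx
          rw [hβe]
          have hx' : (x : Ω) ∈ J₁ := by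
            obtain ⟨w, hw, hwe⟩ := hθJ.ge hx
            have h1 := congrArg Subtype.val (E'.injective_of_mem hθ
              (show θ w = θ (Subgroup.inclusion hRJ x) from hwe))
            exact (show (w : Ω) = x from h1) ▸ hw
          exact hθJ.le ⟨⟨ψ x, hψM x⟩, FusionAux.apply_mem_of_map_eq hψJ hx', rfl⟩
      have hβU : β ∈ U.Hom (restr hRJ θ).range := ⟨hβ', hgood _ _ hβN⟩
      -- pull back
      obtain ⟨θi, hθi, hθie⟩ := U.inv_mem hθU
      have h1 := U.comp_mem hresU hβU fun x => ⟨x, rfl⟩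
      have h2 : ψ ∈ U.Hom (R ⊔ J₁) := comp_mem' U h1 hθi
        (fun x => ⟨⟨ψ x, hψM x⟩, (hβe x).symm⟩) fun x =>
          (hθie ⟨ψ x, hψM x⟩).symm.trans (congrArg θi (Subtype.ext (hβe x).symm))
      exact (h2.2.restr le_sup_left).congr (fun x => (hψe x).symm) rfl
    rcases lt_or_eq_of_le (Subgroup.card_le_of_le hNT') with h | h
    · exact IHn _ (hn ▸ h) _ (hNT'.trans hT'T) E'' hE''s hE'' rfl rfl hcen'' hJ'' Q φ hφ
    · exact IHm _ (hm ▸ FusionModel.morph_normSys_lt E' hV.1 hnV) (hNT'.trans hT'T) E'' hE''s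
        hE'' (h.trans hn) rfl hcen'' hJ'' Q φ hφ
  refine claim _ P hPn hPnn (hBP.trans (le_normalizerIn hPT')) ⟨c, hcN, hcC, hcB⟩
    (card_lt_of_lt (normalizerIn_le P) (lt_normalizerIn hT'p hlt)) rfl P _ ?_
  exact (FusionAux.normSys_spec E' P hPT' P).le (mem_normalizerSystem hPT'
    (FusionAux.normSys_spec E' P hPT') le_rfl (le_normalizerIn hPT') hah
    (fun x => le_normalizerIn hPT' (a x).2) fun x _ => (a x).2)

/-- For odd `p` every element of `C_S(T)` is, modulo `T`, centralized by `E`. -/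
theorem exists_centralized (hp : p ≠ 2) (hS : IsPGroup p S) (hF : F.IsSaturated p)
    (hE : E.IsNormalIn F p) {x : Ω} (hx : x ∈ centralizerIn S T) :
    ∃ v ∈ T, x * v ∈ centralizerIn S T ∧ Centralizes F E (Subgroup.zpowers (x * v)) := by
  have hEs := hE.1.1
  have hEi := hE.1.2.2
  have hT := hEi.2.1
  have hTS := hT.1
  have hTp := hS.to_le hTS
  have : Finite T := finite_of_le ‹_› hTS
  have hW : FusionModel.Natural (fun Q [Group Q] => jA.{u} Q) p := jA_natural p
  have hJT : jOf T ≤ T := FusionModel.wOf_le T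
  have hJn : T ≤ Subgroup.normalizer (jOf T : Set Ω) :=
    FusionModel.le_normalizer_wOf_self hW hTp
  have hJfn : E.IsFullyNormalized (jOf T) := FusionModel.fullyNormalized_wOf hW hTp E
  have hJc : TCentric F T (jOf T) := tCentric_of_centric hEi
    (centric_of_fullyCentralized (saturated_fullyNormalized hTp hEs hJfn).1 fun c hc =>
      centralizer_jOf_le T hc.1 fun w hw => Subgroup.mem_centralizer_iff.1 hc.2 w hw)
  have hsub : E.IsSubsystemOf E := fun _ _ h => h
  obtain ⟨v, hvN, hvA⟩ := exists_fixed_coset hS hF hE hx le_rfl hEs hsub hJc hJT hJfn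
  have hvT : (v : Ω) ∈ T := hJT v.2
  have hy : x * v ∈ centralizerIn S T := ⟨S.mul_mem hx.1 (hTS hvT),
    Subgroup.mem_centralizer_iff.2 fun t ht => by
      have h1 : t * x = x * t := comm_y hx ht
      have h2 : t * (v : Ω) = v * t := hvN t ⟨ht, hJn ht⟩
      rw [← mul_assoc, h1, mul_assoc, h2, mul_assoc]⟩
  set y := x * (v : Ω)
  refine ⟨v, hvT, hy, ?_⟩
  have hA : ∀ a ∈ E.autGroup (jOf T), DispA F y (jOf T) a 1 := by
    intro a ha
    obtain ⟨ψ, hψ, hψe, hψx⟩ := hvA a ha
    have hle : jOf T ⊔ Subgroup.zpowers y ≤ jOf T ⊔ Subgroup.zpowers x :=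
      sup_le le_sup_left (Subgroup.zpowers_le.2 (Subgroup.mul_mem _
        (Subgroup.mem_sup_right (Subgroup.mem_zpowers x)) (Subgroup.mem_sup_left v.2)))
    refine ⟨restr hle ψ, restr_mem F hle hψ, fun w => hψe w, ?_⟩
    show ψ _ = y * 1
    rw [show (Subgroup.inclusion hle ⟨y, Subgroup.mem_sup_right (Subgroup.mem_zpowers y)⟩) =
        (⟨x, Subgroup.mem_sup_right (Subgroup.mem_zpowers x)⟩ : ↥(jOf T ⊔ Subgroup.zpowers x)) *
          ⟨v, Subgroup.mem_sup_left v.2⟩ from Subtype.ext rfl, map_mul, hψx, hψe]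
    show x * ((v : Ω) * (a v : Ω)⁻¹) * (a v : Ω) = x * (v : Ω) * 1
    group
  have hspec := FusionAux.normSys_spec E (jOf T) hJT
  have hNJ := fixes_of_normal hS hF hE hy (normalizerIn_le (jOf T))
    (FusionModel.normSys_saturated hTp hEs hJfn) (fun R χ hχ => hχ.1)
    (normalizerSystem_isNormal hJT hspec) hJc fun a ha =>
      hA a (FusionAux.normalizerSystem_autGroup_self hspec hJT ▸ ha)
  have hall := fixes_of_jOf hp hS hF hE hy _ _ le_rfl E hEs hsub rfl rfl
    (fun P hPc _ => tCentric_of_centric hEi hPc) fun P φ hφ => hNJ P φ hφ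
  intro P φ hφ
  obtain ⟨ψ, hψ, hψe, hψy⟩ := hall P φ hφ
  rw [mul_one] at hψy
  have hc : ∀ w ∈ T, w ∈ centralizerIn S (Subgroup.zpowers y) := fun w hw =>
    ⟨hTS hw, Subgroup.mem_centralizer_iff.2 fun z hz =>
      (Subgroup.mem_centralizer_iff.1 ((Subgroup.zpowers_le.2 hy) hz).2 w hw).symm⟩
  refine ⟨hEi.1 P hφ, fun w hw => hc w (le_S E hφ hw), fun w => hc _ (map_mem_S E hφ w),
    ψ, hψ, fun w => hψe w, ?_⟩
  rintro ⟨z, hz⟩
  obtain ⟨i, rfl⟩ := Subgroup.mem_zpowers_iff.1 hz
  have e : Subgroup.inclusion (le_sup_right : Subgroup.zpowers y ≤ P ⊔ Subgroup.zpowers y)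
      ⟨y ^ i, hz⟩ = ⟨y, Subgroup.mem_sup_right (Subgroup.mem_zpowers y)⟩ ^ i :=
    Subtype.ext (by simp)
  rw [e, map_zpow, hψy]

end Cfsg.Agent.Tech.SmallOdd
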