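import Cfsg.Agent.Tech.SmallOdd.Fixed

/-!
A coset of `y` fixed by lifts of a whole automizer: averaging over the cosets of its Sylow subgroup.
-/

set_option autoImplicit false

open Cfsg Cfsg.FusionSystem
open Cfsg.Agent.FusionSys Cfsg.Agent.FusionAlperin
open scoped IsMulCommutative

namespace Cfsg.Agent.Tech.SmallOdd

universe u

variable {Ω : Type u} [Group Ω] {S T T' : Subgroup Ω} {p : ℕ} [Finite S] [Fact p.Prime]
  {F : FusionSystem S} {E : FusionSystem T} {E' : FusionSystem T'} {y : Ω}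

theorem centric_of_tCentric_sub (hT'T : T' ≤ T) (hE : E.IsSubsystemOf F)
    (hE' : E'.IsSubsystemOf E) {P : Subgroup Ω} (hP : TCentric F T P) (hPT' : P ≤ T') :
    E'.IsCentric P :=
  ⟨hPT', fun R ⟨φ, hφ, h⟩ => le_trans (inf_le_inf_right _ hT'T)
    (hP.2 R ⟨φ, hE P (hE' P hφ), h⟩)⟩

/-- Two displacements of one automorphism differ by a displacement of the identity. -/
theorem disp_div {P : Subgroup Ω} {a : MulAut P} {d d' : Ω} (h : DispA F y P a d)
    (h' : DispA F y P a d') (hd : d ∈ P) (hd' : d' ∈ P) (hPT : P ≤ T) :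
    d' * d⁻¹ ∈ ker F T y P := by
  refine ⟨hPT (P.mul_mem hd' (P.inv_mem hd)), ?_⟩
  refine Disp.congr (h'.mul (h.inv hd) (P.inv_mem (a⁻¹ ⟨d, hd⟩).2)) (fun x => ?_) ?_
  · show (x : Ω) = ((a * a⁻¹) x : P)
    rw [mul_inv_cancel]
    rfl
  · rw [show (⟨((a⁻¹ ⟨d, hd⟩ : P) : Ω)⁻¹, P.inv_mem (a⁻¹ ⟨d, hd⟩).2⟩ : P) = (a⁻¹ ⟨d, hd⟩)⁻¹
      from Subtype.ext rfl, map_inv, MulAut.apply_inv_self]
    rfl

/-- Displacements commute with the elements of the Sylow subgroup they are carried to. -/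
theorem disp_commute_carried (hS : IsPGroup p S) (hF : F.IsSaturated p) (hE : E.IsNormalIn F p)
    (hy : y ∈ centralizerIn S T) (hT'T : T' ≤ T) (hE's : E'.IsSaturated p)
    (hE' : E'.IsSubsystemOf E) {P : Subgroup Ω} (hP : TCentric F T P) (hPT' : P ≤ T')
    {a : MulAut P} (ha : a ∈ E'.autGroup P) {d : Ω} (hd : DispA F y P a d) (hdP : d ∈ P)
    {t t' : Ω} (ht : t ∈ normalizerIn T' P) (ht' : t' ∈ normalizerIn T' P)
    (hconj : ∀ x : P, ∀ hx : t * x * t⁻¹ ∈ P, (a ⟨_, hx⟩ : Ω) = t' * (a x : Ω) * t'⁻¹) :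
    t' * d = d * t' := by
  have hEi := hE.1.2.2
  have hT := hEi.2.1
  have hTS := hT.1
  have hT'p := hS.to_le (hT'T.trans hTS)
  have : Finite T' := finite_of_le ‹_› (hT'T.trans hTS)
  have hPc := centric_of_tCentric_sub hT'T hEi.1 hE' hP hPT'
  have hrec := saturated_fullyCentralized hT'p hE's (centric_fullyCentralized hPc)
  have htc : t ∈ carried T' P a := by
    refine ⟨⟨t, ht.2⟩, mem_autInducedBy.2 ⟨t', ht'.1, fun x => ?_⟩, rfl⟩
    obtain ⟨z, rfl⟩ := a.surjective x
    show ((a (P.normalizerMonoidHom ⟨t, ht.2⟩ (a⁻¹ (a z))) : P) : Ω) = _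
    rw [MulAut.inv_apply_self]
    exact hconj z _
  obtain ⟨e, he, hee⟩ := exists_ext_aut' hrec ha (le_sup_left : P ≤ P ⊔ Subgroup.zpowers t)
    (sup_le (le_normalizerIn hPT') (Subgroup.zpowers_le.2 ht))
    (sup_le (le_carried_self E' hPT' a) (Subgroup.zpowers_le.2 htc))
  set et := e ⟨t, Subgroup.mem_sup_right (Subgroup.mem_zpowers t)⟩ with het
  have hetT : et ∈ T := hT'T (map_mem_S E' he _)
  have hact : ∀ x : P, et * (a x : Ω) * et⁻¹ = t' * (a x : Ω) * t'⁻¹ := fun x => by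
    have hm : t * x * t⁻¹ ∈ P := (Subgroup.mem_normalizer_iff.1 ht.2 x).1 x.2
    rw [← hconj x hm, ← hee x, het, ← map_inv, ← map_mul, ← map_mul, ← hee ⟨_, hm⟩]
    rfl
  have hzP : t'⁻¹ * et ∈ P := by
    refine mem_of_commute hT hP (T.mul_mem (T.inv_mem (hT'T ht'.1)) hetT) fun x hx => ?_
    obtain ⟨w, hw⟩ := a.surjective ⟨x, hx⟩
    have h1 := hact w
    rw [hw] at h1
    calc x * (t'⁻¹ * et) = t'⁻¹ * (t' * x * t'⁻¹) * et := by group
      _ = t'⁻¹ * (et * x * et⁻¹) * et := by rw [h1]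
      _ = t'⁻¹ * et * x := by group
  have hWT : P ⊔ Subgroup.zpowers t ≤ T :=
    sup_le hP.1 (Subgroup.zpowers_le.2 (hT'T ht.1))
  obtain ⟨d', hd'r, hd'⟩ :=
    exists_disp hS hF hE hy (tCentric_mono hP le_sup_left hWT) (hE' _ he)
  have hd'T : d' ∈ T := by
    obtain ⟨w, rfl⟩ := hd'r
    exact hT'T (map_mem_S E' he w)
  have hd'a : DispA F y P a d' := (hd'.restr le_sup_left).congr (fun x => (hee x).symm) rfl
  have hd'c : ∀ x ∈ P, x * d' = d' * x := fun x hx => by
    have h := Disp.commute hd'a (fun w hw => comm_y hy (hP.1 hw))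
      (fun w => comm_y hy (hP.1 (a w).2)) (a.symm ⟨x, hx⟩)
    simpa using h
  have hd'P := mem_of_commute hT hP hd'T hd'c
  have hk := disp_div hd hd'a hdP hd'P hP.1
  have hcA : (P.normalizerMonoidHom ⟨t', ht'.2⟩ : MulAut P) ∈ E.autGroup P :=
    autInducedBy_le_autGroup E hP.1 (mem_autInducedBy.2 ⟨t', hT'T ht'.1, fun _ => rfl⟩)
  have h5 : t' * (d' * d⁻¹) * t'⁻¹ = d' * d⁻¹ :=
    ker_fixed hS hF hE hy hP hcA hk (P.mul_mem hd'P (P.inv_mem hdP))
  have h6 : et * d' = d' * et := Disp.commute hd' (fun w hw => comm_y hy (hWT hw))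
    (fun w => comm_y hy (hT'T (map_mem_S E' he w))) _
  have h7 : t' * d' = d' * t' := by
    obtain ⟨z, hz⟩ : ∃ z, z = t'⁻¹ * et := ⟨_, rfl⟩
    have e1 : et = t' * z := by rw [hz, mul_inv_cancel_left]
    rw [← hz] at hzP
    rw [e1, mul_assoc, hd'c _ hzP, ← mul_assoc, ← mul_assoc] at h6
    exact mul_right_cancel h6
  have h8 : t' * d⁻¹ = d⁻¹ * t' := by
    have h9 : t' * d' * d⁻¹ = d' * d⁻¹ * t' := by
      conv_rhs => rw [← h5]
      group
    rw [h7, mul_assoc, mul_assoc] at h9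
    exact mul_left_cancel h9
  exact ((show Commute t' d⁻¹ from h8).inv_right).eq.trans (by rw [inv_inv]) |> fun h => by
    simpa using h

/-- An automorphism acting on the centre. -/
def cAut {P : Subgroup Ω} (a : MulAut P) : Subgroup.center P →* Subgroup.center P :=
  (a.toMonoidHom.comp (Subgroup.center P).subtype).codRestrict _ fun z => by
    refine Subgroup.mem_center_iff.2 fun g => ?_
    obtain ⟨w, rfl⟩ := a.surjective g
    show a w * a z = a z * a w
    rw [← map_mul, ← map_mul, Subgroup.mem_center_iff.1 z.2 w]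

@[simp] theorem cAut_coe {P : Subgroup Ω} (a : MulAut P) (z : Subgroup.center P) :
    (cAut a z : P) = a z := rfl

/-- The displacements of the identity, in the centre. -/
def kerSub {P : Subgroup Ω} (hPT : P ≤ T) (hPS : P ≤ S) (hy : y ∈ S) (F : FusionSystem S) :
    Subgroup (Subgroup.center P) where
  carrier := {z | ((z : P) : Ω) ∈ ker F T y P}
  one_mem' := ⟨T.one_mem, dispA_one hPS hy⟩
  mul_mem' := fun {a b} ha hb =>
    ⟨hPT ((a * b : Subgroup.center P) : P).2,
      Disp.congr (DispA.mul ha.2 hb.2 ((b : P)).2) (fun _ => rfl) rfl⟩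
  inv_mem' := fun {a} ha =>
    ⟨hPT ((a⁻¹ : Subgroup.center P) : P).2,
      Disp.congr (DispA.inv ha.2 ((a : P)).2) (fun _ => rfl) rfl⟩

/-- The averaging. -/
theorem exists_fixed_coset (hS : IsPGroup p S) (hF : F.IsSaturated p) (hE : E.IsNormalIn F p)
    (hy : y ∈ centralizerIn S T) (hT'T : T' ≤ T) (hE's : E'.IsSaturated p)
    (hE' : E'.IsSubsystemOf E) {P : Subgroup Ω} (hP : TCentric F T P) (hPT' : P ≤ T')
    (hPn : E'.IsFullyNormalized P) :
    ∃ v : P, (∀ x ∈ normalizerIn T' P, x * (v : Ω) = v * x) ∧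
      ∀ a ∈ E'.autGroup P, DispA F y P a ((v : Ω) * (a v : Ω)⁻¹) := by
  classical
  have hEi := hE.1.2.2
  have hT := hEi.2.1
  have hTS := hT.1
  have hPS : P ≤ S := hP.1.trans hTS
  have hT'p := hS.to_le (hT'T.trans hTS)
  have : Finite T' := finite_of_le ‹_› (hT'T.trans hTS)
  have : Finite P := finite_of_le ‹_› hPS
  have hyS : y ∈ S := hy.1
  set A := E'.autGroup P
  set H := (autInducedBy T' P).subgroupOf A with hHdef
  have hHA := autInducedBy_le_autGroup E' hPT'
  obtain ⟨-, R, hR⟩ := (saturated_fullyNormalized hT'p hE's hPn).2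
  have hidx : Nat.Coprime H.index p := by
    refine (((Fact.out : p.Prime).coprime_iff_not_dvd).2 ?_).symm
    rw [hHdef, ← hR]
    exact R.not_dvd_index
  -- a displacement in the centre for each automorphism
  have hdisp : ∀ a : A, ∃ z : Subgroup.center P, DispA F y P (a : MulAut P) ((z : P) : Ω) := by
    intro a
    obtain ⟨d, hdr, hd⟩ := exists_disp hS hF hE hy hP (hE' P (autGroup_mem_hom E' hPT' a.2))
    have hdP : d ∈ P := (range_subtype_comp (a : MulAut P)).le hdr
    refine ⟨⟨⟨d, hdP⟩, Subgroup.mem_center_iff.2 fun g => Subtype.ext ?_⟩, hd⟩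
    obtain ⟨w, rfl⟩ := (a : MulAut P).surjective g
    exact Disp.commute hd (fun x hx => comm_y hy (hP.1 hx))
      (fun x => comm_y hy (hP.1 ((a : MulAut P) x).2)) w
  choose dsp hdsp using hdisp
  -- elements of the Sylow subgroup fix `y`
  have hH1 : ∀ h : A, h ∈ H → DispA F y P (h : MulAut P) 1 := by
    intro h hh
    obtain ⟨t, ht, hte⟩ := mem_autInducedBy.1 hh
    exact dispA_of_inner hPS hyS (hTS (hT'T ht)) (comm_y hy (hT'T ht)) hte
  -- orbit representatives
  let rep : A ⧸ H → A ⧸ H := fun c =>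
    (Quotient.mk'' c : MulAction.orbitRel.Quotient H (A ⧸ H)).out
  have hrep : ∀ c, ∃ h : H, h • rep c = c := fun c => by
    have h1 : c ∈ MulAction.orbit H (rep c) :=
      MulAction.orbitRel_apply.1 (Quotient.exact' (Quotient.out_eq' _).symm)
    exact h1
  have hrepS : ∀ (u : H) (c : A ⧸ H), rep (u • c) = rep c := fun u c => by
    refine congrArg Quotient.out (Quotient.sound' ?_)
    exact MulAction.orbitRel_apply.2 (MulAction.mem_orbit c u)
  choose hh hhc using hrep
  let f : A ⧸ H → Subgroup.center P := fun c =>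
    cAut ((hh c : A) : MulAut P) (dsp (rep c).out)
  -- well defined
  have hwd : ∀ (c : A ⧸ H) (u : H), u • rep c = c →
      cAut ((u : A) : MulAut P) (dsp (rep c).out) = f c := by
    intro c u hu
    set a₀ := (rep c).out with ha₀
    have hs : ((hh c)⁻¹ * u) • rep c = rep c := by
      rw [mul_smul, hu]
      exact inv_smul_eq_iff.2 (hhc c).symm
    set s := (hh c)⁻¹ * u with hsdef
    have hw : a₀⁻¹ * ((s : A) * a₀) ∈ H := by
      rw [← QuotientGroup.eq]
      refine Eq.trans ?_ (Eq.trans hs.symm ?_)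
      · exact Quotient.out_eq' _
      · show (s : A) • rep c = _
        conv_lhs => rw [← Quotient.out_eq' (rep c)]
        rfl
    obtain ⟨t, ht, hte⟩ := mem_autInducedBy.1 hw
    obtain ⟨t', ht', ht'e⟩ := mem_autInducedBy.1 s.2
    have hfix : ((s : A) : MulAut P) (dsp a₀ : P) = (dsp a₀ : P) := by
      refine Subtype.ext ((ht'e _).trans ?_)
      have h := disp_commute_carried hS hF hE hy hT'T hE's hE' hP hPT' a₀.2 (hdsp a₀)
        (dsp a₀ : P).2 ⟨ht, mem_normalizer_of_conj_eq _ hte⟩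
        ⟨ht', mem_normalizer_of_conj_eq _ ht'e⟩ fun x hx => by
          have e1 : (⟨_, hx⟩ : P) = ((a₀⁻¹ * ((s : A) * a₀) : A) : MulAut P) x :=
            Subtype.ext (hte x).symm
          rw [e1, ← ht'e]
          show (((a₀ * (a₀⁻¹ * ((s : A) * a₀)) : A) : MulAut P) x : Ω) = _
          rw [mul_inv_cancel_left]
          rfl
      rw [h, mul_inv_cancel_right]
    refine Subtype.ext ?_
    show ((u : A) : MulAut P) (dsp a₀ : P) = ((hh c : A) : MulAut P) (dsp a₀ : P)
    rw [show (u : A) = (hh c : A) * (s : A) by simp [hsdef], Subgroup.coe_mul, MulAut.mul_apply,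
      hfix]
  have hequiv : ∀ (u : H) (c : A ⧸ H), f (u • c) = cAut ((u : A) : MulAut P) (f c) := by
    intro u c
    rw [← hwd (u • c) (u * hh c) (by rw [hrepS, mul_smul, hhc]), hrepS]
    rfl
  have hbc : ∀ c : A ⧸ H, ∃ b : A, (b : A ⧸ H) = c ∧
      DispA F y P (b : MulAut P) ((f c : P) : Ω) := by
    intro c
    refine ⟨(hh c : A) * (rep c).out, ?_, ?_⟩
    · conv_rhs => rw [← hhc c]
      show _ = (hh c : A) • rep c
      conv_rhs => rw [← Quotient.out_eq' (rep c)]
      rfl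
    · exact Disp.congr (DispA.mul (hH1 _ (hh c).2) (hdsp _) (dsp (rep c).out : P).2)
        (fun _ => rfl) (one_mul _).symm
  choose b hb hbd using hbc
  haveI := Fintype.ofFinite (A ⧸ H)
  set v₀ : Subgroup.center P := ∏ c, f c with hv₀
  have hv₀H : ∀ u : H, cAut ((u : A) : MulAut P) v₀ = v₀ := by
    intro u
    rw [hv₀, map_prod]
    exact Fintype.prod_equiv (MulAction.toPerm u) _ _ fun c => (hequiv u c).symm
  set K := kerSub hP.1 hPS hyS F
  have hmain : ∀ a : A, dsp a ^ H.index * cAut (a : MulAut P) v₀ * v₀⁻¹ ∈ K := by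
    intro a
    have hterm : ∀ c, dsp a * cAut (a : MulAut P) (f c) * (f (a • c))⁻¹ ∈ K := by
      intro c
      have hw : (b (a • c))⁻¹ * (a * b c) ∈ H := by
        rw [← QuotientGroup.eq, hb]
        conv_lhs => rw [← hb c]
        rfl
      have e1 : DispA F y P ((a * b c : A) : MulAut P)
          ((dsp a * cAut (a : MulAut P) (f c) : Subgroup.center P) : P) :=
        Disp.congr (DispA.mul (hdsp a) (hbd c) (f c : P).2) (fun _ => rfl) rfl
      have e2 : DispA F y P ((a * b c : A) : MulAut P) ((f (a • c) : P) : Ω) := by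
        refine Disp.congr (DispA.mul (hbd (a • c)) (hH1 _ hw) P.one_mem) (fun x => ?_) ?_
        · show (((a * b c : A) : MulAut P) x : Ω) =
            (((b (a • c) * ((b (a • c))⁻¹ * (a * b c)) : A) : MulAut P) x : Ω)
          rw [mul_inv_cancel_left]
        · show _ = _ * ((((b (a • c) : A) : MulAut P) 1 : P) : Ω)
          rw [map_one, Subgroup.coe_one, mul_one]
      exact disp_div e2 e1 (Subtype.mem _) (Subtype.mem _) hP.1
    have h := K.prod_mem (t := Finset.univ) fun c _ => hterm c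
    rw [Finset.prod_mul_distrib, Finset.prod_mul_distrib, Finset.prod_const, Finset.card_univ,
      ← Nat.card_eq_fintype_card, ← Subgroup.index_eq_card, ← map_prod, Finset.prod_inv_distrib,
      show (∏ c, f (a • c)) = v₀ from Fintype.prod_equiv (MulAction.toPerm a) _ _ fun _ => rfl]
      at h
    exact h
  -- the root
  obtain ⟨j, hj⟩ := exists_pow_pow_eq hS (hPS (v₀ : P).2) hidx
  set v := v₀ ^ j with hv
  have hvm : v ^ H.index = v₀ := by
    refine Subtype.ext (Subtype.ext ?_)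
    rw [hv, ← pow_mul, mul_comm, pow_mul]
    simpa using hj
  refine ⟨(v : P), fun x hx => ?_, fun a ha => ?_⟩
  · have hxA : P.normalizerMonoidHom ⟨x, hx.2⟩ ∈ autInducedBy T' P :=
      mem_autInducedBy.2 ⟨x, hx.1, fun _ => rfl⟩
    have h1 := hv₀H ⟨⟨_, hHA hxA⟩, hxA⟩
    have h2 : cAut (P.normalizerMonoidHom ⟨x, hx.2⟩) v = v := by
      rw [hv, map_pow]
      exact congrArg (· ^ j) h1
    have h3 : x * ((v : P) : Ω) * x⁻¹ = ((v : P) : Ω) :=
      congrArg (fun z : Subgroup.center P => ((z : P) : Ω)) h2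
    exact mul_inv_eq_iff_eq_mul.1 h3
  · set a' : A := ⟨a, ha⟩
    set q := dsp a' * cAut a v * v⁻¹ with hq
    have hqm : q ^ H.index ∈ K := by
      have h := hmain a'
      rw [← hvm, map_pow, ← inv_pow, ← mul_pow, ← mul_pow] at h
      exact h
    have hqK : ((q : P) : Ω) ∈ ker F T y P :=
      mem_ker_of_pow hS hT hy hP (hP.1 (q : P).2) hidx
        (show (((q ^ H.index : Subgroup.center P) : P) : Ω) ∈ ker F T y P from hqm)
    have hqi : q⁻¹ ∈ K := K.inv_mem (show q ∈ K from hqK)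
    refine Disp.congr (DispA.mul hqi.2 (hdsp a') (dsp a' : P).2) (fun _ => rfl) ?_
    show _ = (((q⁻¹ * dsp a' : Subgroup.center P) : P) : Ω)
    rw [hq, show (dsp a' * cAut a v * v⁻¹)⁻¹ * dsp a' = v * (cAut a v)⁻¹ by
      rw [mul_inv, mul_inv, inv_inv, mul_comm _ v, mul_assoc, mul_comm (dsp a')⁻¹ (cAut a v)⁻¹,
        inv_mul_cancel_right]]
    rfl

end Cfsg.Agent.Tech.SmallOdd
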