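import Cfsg.Agent.FusionAlperin.CentralizerE

/-!
Displacements of an element of `C_S(T)` under extensions of the maps of a normal subsystem over `T`.
-/

set_option autoImplicit false

open Cfsg Cfsg.FusionSystem
open Cfsg.Agent.FusionSys Cfsg.Agent.FusionAlperin

namespace Cfsg.Agent.Tech.SmallOdd

universe u

variable {Ω : Type u} [Group Ω] {S T : Subgroup Ω} {p : ℕ} {F : FusionSystem S}

/-- Some extension of `φ` to `P ⊔ ⟨y⟩` in `F` sends `y` to `y d`. -/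
def Disp (F : FusionSystem S) (y : Ω) (P : Subgroup Ω) (φ : P →* Ω) (d : Ω) : Prop :=
  ∃ ψ ∈ F.Hom (P ⊔ Subgroup.zpowers y),
    (∀ x : P, ψ ⟨x, Subgroup.mem_sup_left x.2⟩ = φ x) ∧
      ψ ⟨y, Subgroup.mem_sup_right (Subgroup.mem_zpowers y)⟩ = y * d

/-- The same for an automorphism. -/
def DispA (F : FusionSystem S) (y : Ω) (P : Subgroup Ω) (a : MulAut P) (d : Ω) : Prop :=
  Disp F y P (P.subtype.comp a.toMonoidHom) d

variable {y : Ω}

theorem Disp.congr {P : Subgroup Ω} {φ φ' : P →* Ω} {d d' : Ω} (h : Disp F y P φ d)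
    (e : ∀ x, φ' x = φ x) (ed : d' = d) : Disp F y P φ' d' := by
  obtain ⟨ψ, hψ, h1, h2⟩ := h
  exact ⟨ψ, hψ, fun x => (h1 x).trans (e x).symm, ed ▸ h2⟩

theorem Disp.le {P : Subgroup Ω} {φ : P →* Ω} {d : Ω} (h : Disp F y P φ d) : P ≤ S := by
  obtain ⟨ψ, hψ, -, -⟩ := h
  exact le_sup_left.trans (le_S F hψ)

theorem Disp.restr {P Q : Subgroup Ω} {φ : P →* Ω} {d : Ω} (h : Disp F y P φ d) (hQP : Q ≤ P) :
    Disp F y Q (restr hQP φ) d := by
  obtain ⟨ψ, hψ, h1, h2⟩ := h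
  exact ⟨Cfsg.Agent.FusionSys.restr (sup_le_sup_right hQP _) ψ, restr_mem F _ hψ,
    fun x => h1 ⟨x, hQP x.2⟩, h2⟩

theorem Disp.comp {P Q : Subgroup Ω} {φ : P →* Ω} {χ : Q →* Ω} {η : P →* Ω} {d e : Ω}
    (h : Disp F y P φ d) (h' : Disp F y Q χ e) (hm : ∀ x, φ x ∈ Q) (hd : d ∈ Q)
    (he : ∀ x, η x = χ ⟨φ x, hm x⟩) : Disp F y P η (e * χ ⟨d, hd⟩) := by
  obtain ⟨ψ, hψ, h1, h2⟩ := h
  obtain ⟨ψ', hψ', h1', h2'⟩ := h'
  have hy : y ∈ Q ⊔ Subgroup.zpowers y := Subgroup.mem_sup_right (Subgroup.mem_zpowers y)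
  have hv : ∀ w, ψ w ∈ Q ⊔ Subgroup.zpowers y := fun w => range_le_sup_of_le ψ
    (fun x hx => Subgroup.mem_sup_left ((h1 ⟨x, hx⟩).symm ▸ hm ⟨x, hx⟩))
    (fun x hx => by
      obtain ⟨n, hn⟩ := Subgroup.mem_zpowers_iff.1 hx
      have e1 : x = ⟨y, Subgroup.mem_sup_right (Subgroup.mem_zpowers y)⟩ ^ n :=
        Subtype.ext (by rw [SubgroupClass.coe_zpow]; exact hn.symm)
      rw [e1, map_zpow, h2]
      exact Subgroup.zpow_mem _ (Subgroup.mul_mem _ hy (Subgroup.mem_sup_left hd)) n) ⟨w, rfl⟩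
  refine ⟨_, F.comp_mem hψ hψ' hv, fun x => ?_, ?_⟩
  · rw [he x]
    refine Eq.trans ?_ (h1' ⟨φ x, hm x⟩)
    exact congrArg ψ' (Subtype.ext (h1 x))
  · show ψ' ⟨ψ _, _⟩ = _
    rw [show (⟨ψ ⟨y, Subgroup.mem_sup_right (Subgroup.mem_zpowers y)⟩, hv _⟩ :
        ↥(Q ⊔ Subgroup.zpowers y)) = ⟨y, hy⟩ * ⟨d, Subgroup.mem_sup_left hd⟩ from
      Subtype.ext h2, map_mul, h2', h1' ⟨d, hd⟩, mul_assoc]

theorem Disp.inv {P : Subgroup Ω} {φ : P →* Ω} {η : φ.range →* Ω} {d : Ω} (h : Disp F y P φ d)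
    {x₀ : P} (hx : φ x₀ = d) (he : ∀ x, η ⟨φ x, x, rfl⟩ = x) :
    Disp F y φ.range η (x₀ : Ω)⁻¹ := by
  obtain ⟨ψ, hψ, h1, h2⟩ := h
  obtain ⟨c, hc, hce⟩ := F.inv_mem hψ
  have hφψ : φ.range ≤ ψ.range := by
    rintro _ ⟨x, rfl⟩
    exact ⟨_, h1 x⟩
  have hy : y = ψ (⟨y, Subgroup.mem_sup_right (Subgroup.mem_zpowers y)⟩ *
      ⟨x₀, Subgroup.mem_sup_left x₀.2⟩⁻¹) := by
    rw [map_mul, map_inv, h2, h1, hx, mul_inv_cancel_right]
  have hle : φ.range ⊔ Subgroup.zpowers y ≤ ψ.range :=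
    sup_le hφψ (Subgroup.zpowers_le.2 ⟨_, hy.symm⟩)
  refine ⟨Cfsg.Agent.FusionSys.restr hle c, restr_mem F hle hc, ?_, ?_⟩
  · rintro ⟨_, x, rfl⟩
    rw [he]
    refine Eq.trans ?_ (hce ⟨x, Subgroup.mem_sup_left x.2⟩)
    exact congrArg c (Subtype.ext (h1 x).symm)
  · have key : ∀ hy' : y ∈ ψ.range, c ⟨y, hy'⟩ = y * (x₀ : Ω)⁻¹ := by
      intro hy'
      have e : (⟨y, hy'⟩ : ψ.range) = ⟨_, _, rfl⟩ := Subtype.ext hy
      rw [e, hce]
      rfl
    exact key _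

theorem DispA.mul {P : Subgroup Ω} {a b : MulAut P} {d e : Ω} (ha : DispA F y P a d)
    (hb : DispA F y P b e) (he : e ∈ P) :
    DispA F y P (a * b) (d * (a ⟨e, he⟩ : Ω)) :=
  Disp.comp hb ha (fun x => (b x).2) he fun _ => rfl

theorem DispA.inv {P : Subgroup Ω} {a : MulAut P} {d : Ω} (ha : DispA F y P a d) (hd : d ∈ P) :
    DispA F y P a⁻¹ ((a⁻¹ ⟨d, hd⟩ : Ω))⁻¹ := by
  have hr : (P.subtype.comp a.toMonoidHom).range = P := range_subtype_comp a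
  let η : ↥(P.subtype.comp a.toMonoidHom).range →* Ω :=
    Cfsg.Agent.FusionSys.restr hr.le (P.subtype.comp (a⁻¹).toMonoidHom)
  have h := Disp.inv (η := η) (x₀ := a⁻¹ ⟨d, hd⟩) ha
    (by
      show ((a (a⁻¹ ⟨d, hd⟩) : P) : Ω) = d
      rw [MulAut.apply_inv_self])
    (fun x => by
      show ((a⁻¹ ⟨(a x : P), _⟩ : P) : Ω) = x
      exact congrArg Subtype.val (MulAut.inv_apply_self P a x))
  exact (h.restr hr.ge).congr (fun x => rfl) rfl

theorem disp_conj {P : Subgroup Ω} {t : Ω} (hP : P ≤ S) (hy : y ∈ S) (ht : t ∈ S)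
    (hty : t * y = y * t) : Disp F y P (conjHom P t) 1 :=
  ⟨conjHom _ t, F.conj_mem (sup_le hP (Subgroup.zpowers_le.2 hy)) ht, fun _ => rfl, by
    show t * y * t⁻¹ = y * 1
    rw [hty, mul_inv_cancel_right, mul_one]⟩

theorem dispA_one {P : Subgroup Ω} (hP : P ≤ S) (hy : y ∈ S) : DispA F y P 1 1 :=
  (disp_conj hP hy S.one_mem (by simp)).congr (fun x => by simp) rfl

theorem dispA_of_inner {P : Subgroup Ω} {a : MulAut P} {t : Ω} (hP : P ≤ S) (hy : y ∈ S)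
    (ht : t ∈ S) (hty : t * y = y * t) (h : ∀ x : P, (a x : Ω) = t * x * t⁻¹) :
    DispA F y P a 1 :=
  (disp_conj hP hy ht hty).congr (fun x => h x) rfl

/-- A displacement of an element centralizing source and image centralizes the image. -/
theorem Disp.commute {P : Subgroup Ω} {φ : P →* Ω} {d : Ω} (h : Disp F y P φ d)
    (hP : ∀ x ∈ P, x * y = y * x) (hφ : ∀ x : P, φ x * y = y * φ x) (x : P) :
    φ x * d = d * φ x := by
  obtain ⟨ψ, -, h1, h2⟩ := h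
  have e : φ x * (y * d) = y * d * φ x := by
    rw [← h1, ← h2, ← map_mul, ← map_mul]
    exact congrArg ψ (Subtype.ext (hP x x.2))
  rw [← mul_assoc, hφ, mul_assoc, mul_assoc] at e
  exact mul_left_cancel e

/-- The values `d` for the identity of `P`, inside `T`. -/
def ker (F : FusionSystem S) (T : Subgroup Ω) (y : Ω) (P : Subgroup Ω) : Set Ω :=
  {k | k ∈ T ∧ DispA F y P 1 k}

section Normal

variable [Finite S] [Fact p.Prime] {E : FusionSystem T}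

theorem E_le_goodExt (hS : IsPGroup p S) (hF : F.IsSaturated p) (hE : E.IsNormalIn F p) :
    E ≤ goodExtSystem F E hE.1.2.2.1 hE.1.2.2.2.1 := by
  obtain ⟨⟨hEs, -, hEi⟩, hext⟩ := hE
  have hT := hEi.2.1
  have hTS := hT.1
  have hTp := hS.to_le hTS
  have : Finite T := finite_of_le ‹_› hTS
  set G := goodExtSystem F E hEi.1 hEi.2.1
  refine Cfsg.Agent.FusionBatch.le_of_centric_radical_step hTp hEs G fun P hPn hPc _ ih => ?_
  have hPT := hPn.1
  have : Finite P := finite_of_le ‹_› (hPT.trans hTS)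
  have hPtc := tCentric_of_centric hEi hPc
  have hEn := saturated_fullyNormalized hTp hEs hPn
  rcases hPT.eq_or_lt with hPeq | hlt
  · subst hPeq
    intro a ha
    obtain ⟨β, hβ, hβT, hβC⟩ := hext a ha
    exact (mem_autGroup G le_rfl).2 ⟨autGroup_mem_hom E le_rfl ha, fun _ =>
      ⟨_, autGroup_mem_hom F (sup_le hTS (centralizerIn_le _)) hβ, fun x => hβT x,
        fun c => (hβC ⟨c, Subgroup.mem_sup_right c.2⟩ c.2).1⟩⟩
  set O := pElemGroup E p P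
  have hnorm : ∀ g ∈ E.autGroup P, ∀ k ∈ O, g * k * g⁻¹ ∈ O := fun g hg k hk => by
    have h := autCongr_mem_pElemGroup E ((mem_autGroup E hPT).1 hg) hk
    have e : MulAut.congr (g : P ≃* P) k = g * k * g⁻¹ := by
      ext x
      simp [MulAut.inv_def]
    rwa [e] at h
  have hle : autInducedBy T P ≤ O := fun c hc => by
    refine ⟨⟨c, autInducedBy_le_autGroup E hPT hc⟩, Subgroup.subset_closure ?_, rfl⟩
    obtain ⟨m, hm⟩ := isPGroup_autInducedBy hTp P ⟨c, hc⟩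
    obtain ⟨j, -, hj⟩ :=
      (Nat.dvd_prime_pow (Fact.out : p.Prime)).1 (orderOf_dvd_of_pow_eq_one hm)
    refine ⟨j, ?_⟩
    rw [Subgroup.orderOf_mk]
    rwa [Subgroup.orderOf_mk] at hj
  have hsyl : SylIn p (autInducedBy T P) O := by
    have h : SylIn p (autInducedBy T P) (E.autGroup P) :=
      ⟨autInducedBy_le_autGroup E hPT, hEn.2.2⟩
    have h2 := h.inf_normal (pElemGroup_le_autGroup E P) hnorm
    rwa [inf_eq_left.2 hle] at h2
  intro a ha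
  obtain ⟨k, hk, hka⟩ := hsyl.frattini (hnorm a ha)
  have hN := normalizerIn_le (S := T) P
  obtain ⟨ψ, hψ, hψe⟩ := exists_ext_aut' (saturated_fullyCentralized hTp hEs hEn.1)
    (mul_mem (pElemGroup_le_autGroup E P hk) ha) (le_normalizerIn hPT) le_rfl
    fun g hg => ⟨⟨g, hg.2⟩, hka _ (mem_autInducedBy.2 ⟨g, hg.1, fun _ => rfl⟩), rfl⟩
  have hψG := ih _ hN (card_lt_of_lt hN (lt_normalizerIn hTp hlt)) hψ
  have h1 : k * a ∈ G.autGroup P := (mem_autGroup G hPT).2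
    (mem_of_restricts G (le_normalizerIn hPT) hψG fun x => (hψe x).symm)
  have h2 := pElem_mem_good hS hF hEi hEs hPtc hk
  simpa using mul_mem ((G.autGroup P).inv_mem h2) h1

/-- Every map of `E` on a centric subgroup has a displacement inside its image. -/
theorem exists_disp (hS : IsPGroup p S) (hF : F.IsSaturated p) (hE : E.IsNormalIn F p)
    (hy : y ∈ centralizerIn S T) {P : Subgroup Ω} (hP : TCentric F T P) {φ : P →* Ω}
    (hφ : φ ∈ E.Hom P) : ∃ d ∈ φ.range, Disp F y P φ d := by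
  obtain ⟨ψ, hψ, hψe, hψc⟩ := (E_le_goodExt hS hF hE P hφ).2 hP
  refine ⟨_, good_value hE.1.2.2.2.1 (hE.1.2.2.1 P hφ) hP hψ hψe hψc ⟨y, hy⟩,
    Cfsg.Agent.FusionSys.restr (sup_le_sup_left (Subgroup.zpowers_le.2 hy) P) ψ,
    restr_mem F _ hψ, fun x => hψe x, ?_⟩
  exact (mul_inv_cancel_left _ _).symm

end Normal

end Cfsg.Agent.Tech.SmallOdd
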