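import Cfsg.Agent.Tech.SmallOdd.Disp
import Cfsg.Agent.Tech.CentralizerFocal

/-!
The displacements of the maps fixing a centric subgroup pointwise are centralized by its
automizer.
-/

set_option autoImplicit false

open Cfsg Cfsg.FusionSystem
open Cfsg.Agent.FusionSys Cfsg.Agent.FusionAlperin

namespace Cfsg.Agent.Tech.SmallOdd

universe u

variable {Ω : Type u} [Group Ω] {S T : Subgroup Ω} {p : ℕ} {F : FusionSystem S} {y : Ω}

theorem mem_of_commute (hT : F.StronglyClosed T) {P : Subgroup Ω} (hP : TCentric F T P) {d : Ω}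
    (hd : d ∈ T) (hc : ∀ x ∈ P, x * d = d * x) : d ∈ P :=
  isConj_rfl_T hT hP ⟨hd, Subgroup.mem_centralizer_iff.2 hc⟩

theorem comm_y (hy : y ∈ centralizerIn S T) {x : Ω} (hx : x ∈ T) : x * y = y * x :=
  Subgroup.mem_centralizer_iff.1 hy.2 x hx

theorem ker_commute (hy : y ∈ centralizerIn S T) {P : Subgroup Ω} (hPT : P ≤ T) {k : Ω}
    (hk : k ∈ ker F T y P) : ∀ x ∈ P, x * k = k * x := fun x hx =>
  Disp.commute hk.2 (fun _ h => comm_y hy (hPT h)) (fun z => comm_y hy (hPT z.2)) ⟨x, hx⟩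

theorem ker_mem (hT : F.StronglyClosed T) (hy : y ∈ centralizerIn S T) {P : Subgroup Ω}
    (hP : TCentric F T P) {k : Ω} (hk : k ∈ ker F T y P) : k ∈ P :=
  mem_of_commute hT hP hk.1 (ker_commute hy hP.1 hk)

theorem ker_pow (hT : F.StronglyClosed T) (hy : y ∈ centralizerIn S T) {P : Subgroup Ω}
    (hP : TCentric F T P) {k : Ω} (hk : k ∈ ker F T y P) (n : ℕ) : k ^ n ∈ ker F T y P := by
  induction n with
  | zero =>
    rw [pow_zero]
    exact ⟨T.one_mem, dispA_one (hP.1.trans hT.1) hy.1⟩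
  | succ n ih =>
    refine ⟨T.pow_mem hk.1 _, ?_⟩
    have h := DispA.mul ih.2 hk.2 (ker_mem hT hy hP hk)
    rw [mul_one] at h
    rw [pow_succ]
    exact h

/-- A power prime to `p` generates. -/
theorem exists_pow_pow_eq [Finite S] [Fact p.Prime] (hS : IsPGroup p S) {d : Ω} (hd : d ∈ S) {m : ℕ}
    (hm : Nat.Coprime m p) : ∃ j : ℕ, (d ^ m) ^ j = d := by
  obtain ⟨n, hn⟩ := hS ⟨d, hd⟩
  have hdn : d ^ p ^ n = 1 := by simpa using congrArg Subtype.val hn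
  have hcop : Nat.Coprime m (p ^ n) := hm.pow_right n
  obtain ⟨j, hj0, hj1⟩ := Nat.chineseRemainder hcop 0 1
  obtain ⟨i, rfl⟩ := Nat.modEq_zero_iff_dvd.1 hj0
  refine ⟨i, ?_⟩
  rw [← pow_mul]
  conv_rhs => rw [← pow_one d]
  exact pow_eq_pow_iff_modEq.2 (hj1.of_dvd (orderOf_dvd_of_pow_eq_one hdn))

theorem mem_ker_of_pow [Finite S] [Fact p.Prime] (hS : IsPGroup p S) (hT : F.StronglyClosed T)
    (hy : y ∈ centralizerIn S T) {P : Subgroup Ω} (hP : TCentric F T P) {d : Ω} (hd : d ∈ T)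
    {m : ℕ} (hm : Nat.Coprime m p) (h : d ^ m ∈ ker F T y P) : d ∈ ker F T y P := by
  obtain ⟨j, hj⟩ := exists_pow_pow_eq hS (hT.1 hd) hm
  exact hj ▸ ker_pow hT hy hP h j

theorem eq_one_of_pow [Finite S] [Fact p.Prime] (hS : IsPGroup p S) {d : Ω} (hd : d ∈ S) {m : ℕ}
    (hm : Nat.Coprime m p) (h : d ^ m = 1) : d = 1 := by
  obtain ⟨j, hj⟩ := exists_pow_pow_eq hS hd hm
  rw [← hj, h, one_pow]

variable [Finite S] [Fact p.Prime] {E : FusionSystem T}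

/-- Conjugation carries the displacements along. -/
theorem ker_map (hS : IsPGroup p S) (hF : F.IsSaturated p) (hE : E.IsNormalIn F p)
    (hy : y ∈ centralizerIn S T) {P : Subgroup Ω} (hP : TCentric F T P) {φ : P →* Ω}
    (hφ : φ ∈ E.Hom P) {k : Ω} (hk : k ∈ ker F T y P) (hkP : k ∈ P) :
    φ ⟨k, hkP⟩ ∈ ker F T y φ.range := by
  have hφT := map_mem_S E hφ
  obtain ⟨d, ⟨x₀, hx₀⟩, hd⟩ := exists_disp hS hF hE hy hP hφ
  obtain ⟨η, hη, hηe⟩ := E.inv_mem hφ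
  have h1 : Disp F y φ.range η (x₀ : Ω)⁻¹ := Disp.inv hd hx₀ hηe
  have hηP : ∀ w, η w ∈ P := by
    rintro ⟨_, x, rfl⟩
    rw [hηe]
    exact x.2
  have h2 : Disp F y φ.range η (k * (x₀ : Ω)⁻¹) :=
    Disp.comp (η := η) h1 hk.2 hηP (P.inv_mem x₀.2) fun _ => rfl
  have h3 := Disp.comp (η := φ.range.subtype) h2 hd hηP (P.mul_mem hkP (P.inv_mem x₀.2)) (by
    rintro ⟨_, x, rfl⟩
    exact congrArg φ (Subtype.ext (hηe x).symm))
  refine ⟨hφT _, h3.congr (fun _ => rfl) ?_⟩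
  have hc := Disp.commute hd (fun x hx => comm_y hy (hP.1 hx)) (fun x => comm_y hy (hφT x))
    ⟨k, hkP⟩
  show φ ⟨k, hkP⟩ = d * φ (⟨k, hkP⟩ * x₀⁻¹)
  rw [map_mul, map_inv, hx₀, ← mul_assoc, ← hc, mul_inv_cancel_right]

/-- A displacement extends to the normalizer. -/
theorem ker_ext (hS : IsPGroup p S) (hF : F.IsSaturated p) (hE : E.IsNormalIn F p)
    (hy : y ∈ centralizerIn S T) {P : Subgroup Ω} (hP : TCentric F T P)
    (hPn : E.IsFullyNormalized P) {k : Ω} (hk : k ∈ ker F T y P) :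
    ∃ δ ∈ F.autGroup (normalizerIn T P), DispA F y (normalizerIn T P) δ k ∧
      ∀ x : ↥(normalizerIn T P), (x : Ω) ∈ P → δ x = x := by
  have hEi := hE.1.2.2
  have hT := hEi.2.1
  have hTS := hT.1
  have hPS := hP.1.trans hTS
  have hkP := ker_mem hT hy hP hk
  obtain ⟨R, hPR, hR⟩ := exists_fullyNormalized F hPS
  obtain ⟨χ, hχ, hχN, hχm⟩ := exists_normalizer_map_fullyNormalized hS hF hR hPR
  have hRc := tCentric_of_isConj hT hP hPR
  have hRfc := (saturated_fullyNormalized hS hF hR).1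
  obtain ⟨ψ, hψ, hψP, hψy⟩ := hk.2
  have hyC : y ∈ centralizerIn S P := centralizerIn_antitone hP.1 hy
  have hyN : y ∈ normalizerIn S P := centralizerIn_le_normalizerIn P hyC
  have hPN := le_normalizerIn (S := S) hPS
  have hW : P ⊔ Subgroup.zpowers y ≤ normalizerIn S P :=
    sup_le hPN (Subgroup.zpowers_le.2 hyN)
  have hψN : ∀ w, ψ w ∈ normalizerIn S P := fun w => range_le_sup_of_le ψ
    (fun x hx => hPN ((hψP ⟨x, hx⟩).symm ▸ hx))
    (fun x hx => by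
      obtain ⟨n, hn⟩ := Subgroup.mem_zpowers_iff.1 hx
      have e1 : x = ⟨y, Subgroup.mem_sup_right (Subgroup.mem_zpowers y)⟩ ^ n :=
        Subtype.ext (by rw [SubgroupClass.coe_zpow]; exact hn.symm)
      rw [e1, map_zpow, hψy]
      exact Subgroup.zpow_mem _ (Subgroup.mul_mem _ hyN (hPN hkP)) n) ⟨w, rfl⟩
  -- the transported map
  have hres := restr_mem F hW hχ
  set e := toIso F hres rfl
  have h1 := F.comp_mem hψ hχ hψN
  have h2 := F.comp_mem (show (P ⊔ Subgroup.zpowers y).subtype.comp e.symm.toMonoidHom ∈ F.Hom _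
    from (toIso_isIso F hres rfl).symm) h1 fun z => (e.symm z).2
  obtain ⟨θ, hθ, hθe⟩ : ∃ θ ∈ F.Hom (restr hW χ).range, ∀ w, θ (e w) = χ ⟨ψ w, hψN w⟩ :=
    ⟨_, h2, fun w => congrArg χ (Subtype.ext (congrArg ψ (e.symm_apply_apply w)))⟩
  have hRW : R ≤ (restr hW χ).range := fun r hr => by
    obtain ⟨w, hw, rfl⟩ := hχm.ge hr
    exact ⟨⟨w, Subgroup.mem_sup_left hw⟩, rfl⟩
  have hθR : ∀ r : R, θ ⟨r, hRW r.2⟩ = r := fun r => by
    obtain ⟨w, hw, hwr⟩ := hχm.ge r.2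
    have e1 : (⟨r, hRW r.2⟩ : (restr hW χ).range) = e ⟨w, Subgroup.mem_sup_left hw⟩ :=
      Subtype.ext hwr.symm
    rw [e1, hθe]
    refine Eq.trans (congrArg χ (Subtype.ext ?_)) hwr
    exact hψP ⟨w, hw⟩
  set y' := χ ⟨y, hyN⟩ with hy'
  have hy'W : y' ∈ (restr hW χ).range :=
    ⟨⟨y, Subgroup.mem_sup_right (Subgroup.mem_zpowers y)⟩, rfl⟩
  have hθy : θ ⟨y', hy'W⟩ = χ ⟨y * k, Subgroup.mul_mem _ hyN (hPN hkP)⟩ := by
    have e1 : (⟨y', hy'W⟩ : (restr hW χ).range) =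
        e ⟨y, Subgroup.mem_sup_right (Subgroup.mem_zpowers y)⟩ := Subtype.ext rfl
    rw [e1, hθe]
    exact congrArg χ (Subtype.ext hψy)
  have hy'C : y' ∈ centralizerIn S R := by
    refine ⟨map_mem_S F hχ _, Subgroup.mem_centralizer_iff.2 fun r hr => ?_⟩
    obtain ⟨w, hw, rfl⟩ := hχm.ge hr
    rw [← map_mul, ← map_mul]
    exact congrArg χ (Subtype.ext (Subgroup.mem_centralizer_iff.1 hyC.2 _ hw))
  have hXW : Subgroup.zpowers y' ≤ (restr hW χ).range := Subgroup.zpowers_le.2 hy'W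
  have hXC : Subgroup.zpowers y' ≤ centralizerIn S R := Subgroup.zpowers_le.2 hy'C
  have hmem : restr hXW θ ∈ F.centralizerHom R (Subgroup.zpowers y') := by
    refine ⟨restr_mem F hXW hθ, hXC, fun z => ⟨map_mem_S F hθ _,
      Subgroup.mem_centralizer_iff.2 fun r hr => ?_⟩,
      restr (sup_le hXW hRW) θ, restr_mem F _ hθ, fun _ => rfl, fun r => hθR r⟩
    show ((⟨r, hr⟩ : R) : Ω) * _ = _ * ((⟨r, hr⟩ : R) : Ω)
    rw [← hθR ⟨r, hr⟩, restr_apply, ← map_mul, ← map_mul]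
    exact congrArg θ (Subtype.ext (Subgroup.mem_centralizer_iff.1 (hXC z.2).2 r hr))
  obtain ⟨Ψ, hΨ, hΨX, hΨR⟩ :=
    exists_ext_normalizerT hS hF hT hRc.1 (isConj_rfl_T hT hRc) hRfc hmem
  have hΨy : Ψ ⟨y', Subgroup.mem_sup_left (Subgroup.mem_zpowers y')⟩ =
      χ ⟨y * k, Subgroup.mul_mem _ hyN (hPN hkP)⟩ :=
    (hΨX ⟨y', Subgroup.mem_zpowers y'⟩).trans hθy
  -- the image of the normalizer
  have : Finite ↥(normalizerIn T R) := finite_of_le ‹_› ((normalizerIn_le R).trans hTS)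
  have hle : normalizerIn T P ≤ normalizerIn S P := inf_le_inf_right _ hTS
  have hχT : ∀ n : ↥(normalizerIn T P), restr hle χ n ∈ normalizerIn T R := fun n =>
    ⟨sc_map_mem hT hχ n.2.1, (hχN _).2⟩
  have hres' := restr_mem F hle hχ
  have hcard : Nat.card ↥(normalizerIn T R) ≤ Nat.card ↥(normalizerIn T P) := by
    obtain ⟨φ, hφ, hφr⟩ := hPR
    obtain ⟨α, -, φ₀, hφ₀, hαe⟩ := hEi.2.2.2 P hP.1 φ hφ
    refine le_trans ?_ (hPn.2 φ₀.range ⟨φ₀, hφ₀, rfl⟩)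
    have : Finite ↥(normalizerIn T φ₀.range) :=
      finite_of_le ‹_› ((normalizerIn_le _).trans hTS)
    have key : ∀ g : T, (g : Ω) ∈ Subgroup.normalizer (R : Set Ω) →
        ∀ q ∈ φ₀.range, ((α.symm g : T) : Ω) * q * ((α.symm g : T) : Ω)⁻¹ ∈ φ₀.range := by
      rintro g hg _ ⟨x, rfl⟩
      have hR1 : φ x ∈ R := hφr ▸ ⟨x, rfl⟩
      have hR2 := (Subgroup.mem_normalizer_iff.1 hg (φ x)).1 hR1
      rw [← hφr] at hR2
      obtain ⟨x', hx'⟩ := hR2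
      refine ⟨x', ?_⟩
      have e1 : (⟨φ₀ x', map_mem_S E hφ₀ x'⟩ : T) =
          α.symm g * ⟨φ₀ x, map_mem_S E hφ₀ x⟩ * (α.symm g)⁻¹ := by
        apply α.injective
        refine Subtype.ext ?_
        rw [map_mul, map_mul, map_inv, MulEquiv.apply_symm_apply, Subgroup.coe_mul,
          Subgroup.coe_mul, Subgroup.coe_inv, ← hαe x (map_mem_S E hφ₀ x),
          ← hαe x' (map_mem_S E hφ₀ x'), hx']
      exact congrArg Subtype.val e1
    refine Nat.card_le_card_of_injective (fun g : ↥(normalizerIn T R) =>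
      (⟨(α.symm ⟨g, g.2.1⟩ : T), (α.symm _).2, Subgroup.mem_normalizer_iff.2 fun q =>
        ⟨key ⟨g, g.2.1⟩ g.2.2 q, fun hq => by
          have h := key ⟨g, g.2.1⟩⁻¹ ((Subgroup.normalizer _).inv_mem g.2.2) _ hq
          simpa [mul_assoc] using h⟩⟩ : ↥(normalizerIn T φ₀.range))) fun a b h => ?_
    have h1 : α.symm ⟨(a : Ω), a.2.1⟩ = α.symm ⟨(b : Ω), b.2.1⟩ :=
      Subtype.ext (congrArg Subtype.val h :)
    exact Subtype.ext (congrArg Subtype.val (α.symm.injective h1) :)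
  have hrN : (restr hle χ).range = normalizerIn T R :=
    range_eq_of_image_le (F.injective_of_mem hres') (by
      rintro _ ⟨n, rfl⟩
      exact hχT n) hcard
  -- back along `χ`
  have hV : normalizerIn T P ⊔ Subgroup.zpowers y ≤ normalizerIn S P :=
    sup_le hle (Subgroup.zpowers_le.2 hyN)
  have hresV := restr_mem F hV hχ
  set eV := toIso F hresV rfl
  have hv1 : ∀ w, restr hV χ w ∈ Subgroup.zpowers y' ⊔ normalizerIn T R := fun w =>
    range_le_sup_of_le (restr hV χ)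
      (fun x hx => Subgroup.mem_sup_right (hχT ⟨x, hx⟩))
      (fun x hx => Subgroup.mem_sup_left (by
        obtain ⟨n, hn⟩ := Subgroup.mem_zpowers_iff.1 hx
        refine Subgroup.mem_zpowers_iff.2 ⟨n, ?_⟩
        rw [hy', ← map_zpow]
        exact congrArg χ (Subtype.ext (by rw [SubgroupClass.coe_zpow]; exact hn)))) ⟨w, rfl⟩
  have hNr : normalizerIn T R ≤ (restr hV χ).range := fun r hr => by
    obtain ⟨n, rfl⟩ := hrN.ge hr
    exact ⟨⟨n, Subgroup.mem_sup_left n.2⟩, rfl⟩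
  have hyk : y * k ∈ normalizerIn T P ⊔ Subgroup.zpowers y := Subgroup.mul_mem _
    (Subgroup.mem_sup_right (Subgroup.mem_zpowers y))
    (Subgroup.mem_sup_left (le_normalizerIn hP.1 hkP))
  have hΨv : ∀ z, Ψ z ∈ (restr hV χ).range := fun z => range_le_sup_of_le Ψ
    (fun x hx => by
      obtain ⟨n, hn⟩ := Subgroup.mem_zpowers_iff.1 hx
      have e1 : x = ⟨y', Subgroup.mem_sup_left (Subgroup.mem_zpowers y')⟩ ^ n :=
        Subtype.ext (by rw [SubgroupClass.coe_zpow]; exact hn.symm)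
      rw [e1, map_zpow, hΨy]
      exact Subgroup.zpow_mem _
        (show χ ⟨y * k, _⟩ ∈ (restr hV χ).range from ⟨⟨y * k, hyk⟩, rfl⟩) n)
    (fun x hx => hNr (fix_mem_normalizerT hT hΨ
      ((le_normalizerIn hRc.1).trans le_sup_right) hΨR hx)) ⟨z, rfl⟩
  have hm1 := F.comp_mem hresV hΨ hv1
  have hm2 := F.comp_mem hm1 (toIso_isIso F hresV rfl).symm fun w => hΨv _
  obtain ⟨D, hD, hDe⟩ : ∃ D ∈ F.Hom (normalizerIn T P ⊔ Subgroup.zpowers y),
      ∀ w, ∃ hw : D w ∈ normalizerIn S P, χ ⟨D w, hw⟩ = Ψ ⟨restr hV χ w, hv1 w⟩ := by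
    refine ⟨_, hm2, fun w => ⟨hV (eV.symm ⟨_, hΨv _⟩).2, ?_⟩⟩
    exact congrArg Subtype.val (eV.apply_symm_apply ⟨_, hΨv ⟨restr hV χ w, hv1 w⟩⟩)
  have hDy : D ⟨y, Subgroup.mem_sup_right (Subgroup.mem_zpowers y)⟩ = y * k := by
    obtain ⟨hw, he⟩ := hDe ⟨y, Subgroup.mem_sup_right (Subgroup.mem_zpowers y)⟩
    exact congrArg Subtype.val (F.injective_of_mem hχ (he.trans hΨy))
  have hDN : ∀ n : ↥(normalizerIn T P),
      D ⟨n, Subgroup.mem_sup_left n.2⟩ ∈ normalizerIn T P := fun n => by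
    obtain ⟨hw, he⟩ := hDe ⟨n, Subgroup.mem_sup_left n.2⟩
    have h1 : χ ⟨_, hw⟩ ∈ normalizerIn T R := he ▸ fix_mem_normalizerT hT hΨ
      ((le_normalizerIn hRc.1).trans le_sup_right) hΨR (hχT n)
    obtain ⟨n', hn'⟩ := hrN.ge h1
    have h2 := congrArg Subtype.val (F.injective_of_mem hχ hn')
    have h2' : (n' : Ω) = D ⟨n, Subgroup.mem_sup_left n.2⟩ := h2
    rw [← h2']
    exact n'.2
  have hDP : ∀ x : P, D ⟨x, Subgroup.mem_sup_left (le_normalizerIn hP.1 x.2)⟩ = x := fun x => by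
    obtain ⟨hw, he⟩ := hDe ⟨x, Subgroup.mem_sup_left (le_normalizerIn hP.1 x.2)⟩
    have hR1 : χ ⟨x, hPN x.2⟩ ∈ R := hχm.le ⟨⟨x, hPN x.2⟩, x.2, rfl⟩
    exact congrArg Subtype.val (F.injective_of_mem hχ (he.trans (hΨR ⟨_, hR1⟩)))
  have : Finite ↥(normalizerIn T P) := finite_of_le ‹_› ((normalizerIn_le P).trans hTS)
  have hDres := restr_mem F (le_sup_left : normalizerIn T P ≤ _) hD
  have hDr : (restr (le_sup_left : normalizerIn T P ≤ _) D).range = normalizerIn T P :=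
    range_eq_of_image_le (F.injective_of_mem hDres) (by
      rintro _ ⟨n, rfl⟩
      exact hDN n) le_rfl
  refine ⟨toIso F hDres hDr, toIso_mem_autGroup F hDres hDr, ⟨D, hD, fun x => ?_, hDy⟩,
    fun x hx => Subtype.ext ?_⟩
  · rfl
  · exact hDP ⟨x, hx⟩

/-- The automizer of a centric subgroup fixes the displacements. -/
theorem ker_fixed (hS : IsPGroup p S) (hF : F.IsSaturated p) (hE : E.IsNormalIn F p)
    (hy : y ∈ centralizerIn S T) {P : Subgroup Ω} (hP : TCentric F T P) {a : MulAut P}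
    (ha : a ∈ E.autGroup P) {k : Ω} (hk : k ∈ ker F T y P) (hkP : k ∈ P) :
    (a ⟨k, hkP⟩ : Ω) = k := by
  obtain ⟨n, hn⟩ : ∃ n, n = Nat.card T - Nat.card P := ⟨_, rfl⟩
  induction n using Nat.strong_induction_on generalizing P k with
  | _ n ih =>
  have hEs := hE.1.1
  have hEi := hE.1.2.2
  have hT := hEi.2.1
  have hTS := hT.1
  have hTp := hS.to_le hTS
  have : Finite T := finite_of_le ‹_› hTS
  suffices main : ∀ (Q : Subgroup Ω), TCentric F T Q → E.IsFullyNormalized Q →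
      n = Nat.card T - Nat.card Q → ∀ b ∈ E.autGroup Q, ∀ l ∈ ker F T y Q, ∀ hlQ : l ∈ Q,
      (b ⟨l, hlQ⟩ : Ω) = l by
    obtain ⟨Q, hPQ, hQ⟩ := exists_fullyNormalized E hP.1
    obtain ⟨φ, hφ, rfl⟩ := hPQ
    have hQc : TCentric F T φ.range :=
      tCentric_of_isConj hT hP ⟨φ, hEi.1 P hφ, rfl⟩
    set f := toIso E hφ rfl
    have hb := autCongr_mem E (toIso_isIso E hφ rfl) ha
    have hl := ker_map hS hF hE hy hP hφ hk hkP
    have hc : n = Nat.card T - Nat.card φ.range := by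
      rw [hn, Nat.card_congr f.toEquiv]
    have h := main _ hQc hQ hc _ hb _ hl ⟨_, rfl⟩
    have e1 : (⟨φ ⟨k, hkP⟩, ⟨_, rfl⟩⟩ : φ.range) = f ⟨k, hkP⟩ := Subtype.ext rfl
    rw [e1, autCongr_apply, MulEquiv.symm_apply_apply] at h
    exact congrArg Subtype.val (E.injective_of_mem hφ h)
  clear hn hkP hk k ha a hP P
  intro P hP hPn hn
  have hPT := hP.1
  have hPS := hPT.trans hTS
  have : Finite P := finite_of_le ‹_› hPS
  rcases hPT.eq_or_lt with hPeq | hlt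
  · subst hPeq
    intro b hb l hl hlP
    obtain ⟨ψ, hψ, hψP, hψy⟩ := hl.2
    have hD : F.IsCentralizerSystem P (centSys F P hTS) := fun _ => rfl
    have hyv : ∀ z : ↥(Subgroup.zpowers y),
        restr (le_sup_right : Subgroup.zpowers y ≤ P ⊔ Subgroup.zpowers y) ψ z ∈
          centralizerIn S P := fun z => by
      refine ⟨map_mem_S F hψ _, Subgroup.mem_centralizer_iff.2 fun x hx => ?_⟩
      rw [restr_apply]
      show ((⟨x, hx⟩ : P) : Ω) * _ = _ * ((⟨x, hx⟩ : P) : Ω)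
      have e : ((⟨x, hx⟩ : P) : Ω) = ψ ⟨x, Subgroup.mem_sup_left hx⟩ := (hψP ⟨x, hx⟩).symm
      rw [e, ← map_mul, ← map_mul]
      exact congrArg ψ (Subtype.ext (Subgroup.mem_centralizer_iff.1
        ((Subgroup.zpowers_le.2 hy) z.2).2 x hx))
    have hlf : l ∈ (centSys F P hTS).focalSubgroup := by
      refine Subgroup.subset_closure ⟨Subgroup.zpowers y, restr le_sup_right ψ,
        ⟨y, Subgroup.mem_zpowers y⟩, ⟨restr_mem F _ hψ, Subgroup.zpowers_le.2 hy, hyv,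
          restr (sup_le le_sup_right le_sup_left) ψ, restr_mem F _ hψ, fun _ => rfl,
          fun x => hψP x⟩, ?_⟩
      show l = y⁻¹ * ψ _
      exact (by rw [show ψ ⟨y, Subgroup.mem_sup_right (Subgroup.mem_zpowers y)⟩ = y * l from hψy,
        inv_mul_cancel_left] : l = y⁻¹ * ψ ⟨y, Subgroup.mem_sup_right (Subgroup.mem_zpowers y)⟩)
    obtain ⟨-, -, -, θ, -, hθP, hθf⟩ :=
      CentFocal.centralizes_focal hS hF hD hE P (autGroup_mem_hom E le_rfl hb)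
    exact (hθP ⟨l, hlP⟩).symm.trans (hθf ⟨l, hlf⟩)
  have hPc := centric_of_tCentric hEi.1 hP
  have hEn := saturated_fullyNormalized hTp hEs hPn
  -- the automorphisms fixing the displacements
  let Fx : Subgroup (MulAut P) :=
    { carrier := {b | b ∈ E.autGroup P ∧ ∀ l ∈ ker F T y P, ∀ hlP : l ∈ P, (b ⟨l, hlP⟩ : Ω) = l}
      one_mem' := ⟨one_mem _, fun _ _ _ => rfl⟩
      mul_mem' := fun {b c} hb hc => ⟨mul_mem hb.1 hc.1, fun l hl hlP => by
        rw [MulAut.mul_apply, show c ⟨l, hlP⟩ = ⟨l, hlP⟩ from Subtype.ext (hc.2 l hl hlP)]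
        exact hb.2 l hl hlP⟩
      inv_mem' := fun {b} hb => ⟨(E.autGroup P).inv_mem hb.1, fun l hl hlP => by
        rw [MulAut.inv_def, show b.symm ⟨l, hlP⟩ = ⟨l, hlP⟩ from by
          rw [MulEquiv.symm_apply_eq]
          exact Subtype.ext (hb.2 l hl hlP).symm]⟩ }
  have hFn : ∀ g ∈ E.autGroup P, ∀ b ∈ Fx, g * b * g⁻¹ ∈ Fx := by
    intro g hg b hb
    refine ⟨mul_mem (mul_mem hg hb.1) ((E.autGroup P).inv_mem hg), fun l hl hlP => ?_⟩
    have hgi : P.subtype.comp (g⁻¹).toMonoidHom ∈ E.Hom P :=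
      autGroup_mem_hom E hPT ((E.autGroup P).inv_mem hg)
    have hl' := ker_map hS hF hE hy hP hgi hl hlP
    rw [range_subtype_comp (g⁻¹)] at hl'
    have h1 : b (g⁻¹ ⟨l, hlP⟩) = g⁻¹ ⟨l, hlP⟩ :=
      Subtype.ext (hb.2 _ hl' (g⁻¹ ⟨l, hlP⟩).2)
    rw [MulAut.mul_apply, MulAut.mul_apply, h1, MulAut.apply_inv_self]
  have hFT : autInducedBy T P ≤ Fx := by
    intro c hc
    refine ⟨autInducedBy_le_autGroup E hPT hc, fun l hl hlP => ?_⟩
    obtain ⟨t, ht, hte⟩ := mem_autInducedBy.1 hc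
    obtain ⟨δ, -, hδd, -⟩ := ker_ext hS hF hE hy hP hPn hl
    have htN : t ∈ normalizerIn T P := ⟨ht, mem_normalizer_of_conj_eq c hte⟩
    have h := Disp.commute hδd (fun x hx => comm_y hy ((normalizerIn_le P) hx))
      (fun x => comm_y hy ((normalizerIn_le P) (δ x).2)) (δ.symm ⟨t, htN⟩)
    simp only [MonoidHom.coe_comp, MulEquiv.coe_toMonoidHom, Function.comp_apply,
      Subgroup.coe_subtype, MulEquiv.apply_symm_apply] at h
    rw [hte ⟨l, hlP⟩]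
    show t * l * t⁻¹ = l
    rw [h, mul_inv_cancel_right]
  have hpF : ∀ b ∈ E.autGroup P, IsPGroup p (Subgroup.zpowers b) → b ∈ Fx := by
    intro b hb hbp
    obtain ⟨g, hg, hconj⟩ :=
      exists_conj_le_autInducedBy hEn.2 hbp (Subgroup.zpowers_le.2 hb)
    have h := hFn g⁻¹ ((E.autGroup P).inv_mem hg) _ (hFT (hconj b (Subgroup.mem_zpowers b)))
    simpa [mul_assoc] using h
  set O := pElemGroup E p P
  have hOF : O ≤ Fx := by
    show pElemGroup E p P ≤ Fx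
    rw [pElemGroup, Subgroup.map_le_iff_le_comap, Subgroup.closure_le]
    rintro b ⟨j, hj⟩
    refine hpF b b.2 (IsPGroup.of_card (n := j) ?_)
    rw [Nat.card_zpowers, Subgroup.orderOf_coe, hj]
  have hnorm : ∀ g ∈ E.autGroup P, ∀ c ∈ O, g * c * g⁻¹ ∈ O := fun g hg c hc => by
    have h := autCongr_mem_pElemGroup E ((mem_autGroup E hPT).1 hg) hc
    have e : MulAut.congr (g : P ≃* P) c = g * c * g⁻¹ := by
      ext x
      simp [MulAut.inv_def]
    rwa [e] at h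
  have hle : autInducedBy T P ≤ O := fun c hc => by
    refine ⟨⟨c, autInducedBy_le_autGroup E hPT hc⟩, Subgroup.subset_closure ?_, rfl⟩
    obtain ⟨m, hm⟩ := isPGroup_autInducedBy hTp P ⟨c, hc⟩
    obtain ⟨j, -, hj⟩ :=
      (Nat.dvd_prime_pow (Fact.out : p.Prime)).1 (orderOf_dvd_of_pow_eq_one hm)
    refine ⟨j, ?_⟩
    rw [Subgroup.orderOf_mk]
    rwa [Subgroup.orderOf_mk] at hj
  have hsyl : SylIn p (autInducedBy T P) O := by
    have h : SylIn p (autInducedBy T P) (E.autGroup P) :=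
      ⟨autInducedBy_le_autGroup E hPT, hEn.2.2⟩
    have h2 := h.inf_normal (pElemGroup_le_autGroup E P) hnorm
    rwa [inf_eq_left.2 hle] at h2
  suffices hall : ∀ b ∈ E.autGroup P, b ∈ Fx from fun b hb => (hall b hb).2
  intro b₀ hb₀
  obtain ⟨c, hc, hcb⟩ := hsyl.frattini (hnorm b₀ hb₀)
  suffices hb : c * b₀ ∈ Fx by simpa using mul_mem (Fx.inv_mem (hOF hc)) hb
  have hbA : c * b₀ ∈ E.autGroup P := mul_mem (pElemGroup_le_autGroup E P hc) hb₀
  set b := c * b₀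
  refine ⟨hbA, fun l hl hlP => ?_⟩
  -- extend to the normalizer
  set N := normalizerIn T P with hNdef
  have hNT : N ≤ T := normalizerIn_le P
  have hPN : P ≤ N := le_normalizerIn hPT
  have hPlt : P < N := lt_normalizerIn hTp hlt
  have : Finite N := finite_of_le ‹_› (hNT.trans hTS)
  obtain ⟨ψh, hψh, hψe⟩ := exists_ext_aut' (saturated_fullyCentralized hTp hEs hEn.1)
    hbA hPN le_rfl fun g hg => ⟨⟨g, hg.2⟩, hcb _ (mem_autInducedBy.2 ⟨g, hg.1, fun _ => rfl⟩), rfl⟩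
  have hψr : ψh.range = N := by
    refine range_eq_of_image_le (E.injective_of_mem hψh) ?_ le_rfl
    rintro _ ⟨g, rfl⟩
    refine ⟨map_mem_S E hψh g, Subgroup.mem_normalizer_iff.2 fun q => ?_⟩
    have key : ∀ g : N, ∀ q ∈ P, ψh g * q * (ψh g)⁻¹ ∈ P := fun g q hq => by
      obtain ⟨q', hq'⟩ := b.surjective ⟨q, hq⟩
      have e1 : q = ψh ⟨q', hPN q'.2⟩ :=
        (congrArg Subtype.val hq').symm.trans (hψe q').symm
      have hm : (g : Ω) * q' * (g : Ω)⁻¹ ∈ P := (Subgroup.mem_normalizer_iff.1 g.2.2 q').1 q'.2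
      rw [e1, ← map_inv, ← map_mul, ← map_mul]
      have e2 : g * ⟨q', hPN q'.2⟩ * g⁻¹ = Subgroup.inclusion hPN ⟨_, hm⟩ := Subtype.ext rfl
      rw [e2, hψe]
      exact (b _).2
    refine ⟨key g q, fun hq => ?_⟩
    have h := key g⁻¹ _ hq
    simpa [mul_assoc] using h
  set ψ : MulAut N := toIso E hψh hψr with hψdef
  have hψA : ψ ∈ E.autGroup N := toIso_mem_autGroup E hψh hψr
  have hψP : ∀ (x : N) (hx : (x : Ω) ∈ P), (ψ x : Ω) = b ⟨x, hx⟩ := fun x hx => hψe ⟨x, hx⟩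
  have hψiP : ∀ x : N, (x : Ω) ∈ P → (ψ⁻¹ x : Ω) ∈ P := fun x hx => by
    have e1 : ψ ⟨b.symm ⟨x, hx⟩, hPN (b.symm _).2⟩ = x := Subtype.ext (by
      rw [hψP ⟨b.symm ⟨x, hx⟩, hPN (b.symm _).2⟩ (b.symm _).2]
      exact congrArg Subtype.val (b.apply_symm_apply ⟨x, hx⟩))
    rw [← e1, MulAut.inv_apply_self]
    exact (b.symm _).2
  obtain ⟨δ, hδ, hδd, hδP⟩ := ker_ext hS hF hE hy hP hPn hl
  have hδiP : ∀ x : N, (x : Ω) ∈ P → δ⁻¹ x = x := fun x hx => by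
    conv_lhs => rw [← hδP x hx]
    rw [MulAut.inv_apply_self]
  -- the commutator is inner by an element of `P`
  set u := ψ * δ * ψ⁻¹ * δ⁻¹ with hu
  have huA : u ∈ E.autGroup N := by
    have hδi : IsIso F (δ : N ≃* N) := (mem_autGroup F (hNT.trans hTS)).1 hδ
    have h := autCongr_mem_of_invariant hS hF hEi hNT hδi ((E.autGroup N).inv_mem hψA)
    have e : MulAut.congr (δ : N ≃* N) ψ⁻¹ = δ * ψ⁻¹ * δ⁻¹ := by
      ext x
      simp [MulAut.inv_def]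
    rw [e] at h
    have := mul_mem hψA h
    rwa [hu, mul_assoc ψ δ, mul_assoc ψ]
  have huP : ∀ x : N, (x : Ω) ∈ P → u x = x := fun x hx => by
    rw [hu, MulAut.mul_apply, MulAut.mul_apply, MulAut.mul_apply, hδiP x hx,
      hδP _ (hψiP x hx), MulAut.apply_inv_self]
  obtain ⟨z, -, hzP, hz⟩ := centric_aut_inner hTp hEs hPc hPN inf_le_right huA hNT huP
  -- its displacement
  have hNc : TCentric F T N := tCentric_mono hP hPN hNT
  obtain ⟨d, ⟨x₀, hx₀⟩, hd⟩ := exists_disp hS hF hE hy hNc hψh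
  have hψd : DispA F y N ψ d := hd.congr (fun _ => rfl) rfl
  have hdN : d ∈ N := hψr.le ⟨x₀, hx₀⟩
  have hdc : ∀ x ∈ N, x * d = d * x := fun x hx => by
    have h := Disp.commute hψd (fun w hw => comm_y hy (hNT hw))
      (fun w => comm_y hy (hNT (ψ w).2)) (ψ.symm ⟨x, hx⟩)
    simpa using h
  have hdP : d ∈ P := mem_of_commute hT hP (hNT hdN) fun x hx => hdc x (hPN hx)
  have hlN : l ∈ N := hPN hlP
  have hψl : (ψ ⟨l, hlN⟩ : Ω) ∈ P := (hψP ⟨l, hlN⟩ hlP).symm ▸ (b _).2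
  have h1 : DispA F y N (ψ * δ) (d * (ψ ⟨l, hlN⟩ : Ω)) := hψd.mul hδd hlN
  have hd'P : ((ψ⁻¹ ⟨d, hdN⟩ : N) : Ω)⁻¹ ∈ P := P.inv_mem (hψiP ⟨d, hdN⟩ hdP)
  have h2 : DispA F y N (ψ * δ * ψ⁻¹) (ψ ⟨l, hlN⟩ : Ω) := by
    refine Disp.congr (h1.mul (hψd.inv hdN) (hPN hd'P)) (fun _ => rfl) ?_
    rw [MulAut.mul_apply, hδP ⟨_, hPN hd'P⟩ hd'P]
    have e1 : (⟨((ψ⁻¹ ⟨d, hdN⟩ : N) : Ω)⁻¹, hPN hd'P⟩ : N) = (ψ⁻¹ ⟨d, hdN⟩)⁻¹ := Subtype.ext rfl
    rw [e1, map_inv, MulAut.apply_inv_self, Subgroup.coe_inv, ← hdc _ (ψ ⟨l, hlN⟩).2,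
      mul_inv_cancel_right]
  have h3 : DispA F y N u ((ψ ⟨l, hlN⟩ : Ω) * l⁻¹) := by
    have hi : DispA F y N δ⁻¹ ((δ⁻¹ ⟨l, hlN⟩ : Ω))⁻¹ := hδd.inv hlN
    rw [hδiP ⟨l, hlN⟩ hlP] at hi
    refine Disp.congr (h2.mul hi (hPN (P.inv_mem hlP))) (fun _ => rfl) ?_
    have e1 : (⟨l⁻¹, hPN (P.inv_mem hlP)⟩ : N) = (⟨l, hlN⟩)⁻¹ := Subtype.ext rfl
    rw [MulAut.mul_apply, MulAut.mul_apply, hδP _ (hψiP _ (P.inv_mem hlP)),
      MulAut.apply_inv_self]
  set e := (ψ ⟨l, hlN⟩ : Ω) * l⁻¹ with he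
  have heP : e ∈ P := P.mul_mem hψl (P.inv_mem hlP)
  have hzc : z * e = e * z := by
    have h4 : z * l = l * z := ker_commute hy hPT hl z hzP
    have hψl2 : (ψ ⟨l, hlN⟩ : Ω) ∈ ker F T y P := by
      have h5 := ker_map hS hF hE hy hP (autGroup_mem_hom E hPT hbA) hl hlP
      rw [range_subtype_comp b] at h5
      rw [hψP ⟨l, hlN⟩ hlP]
      exact h5
    have h6 : z * (ψ ⟨l, hlN⟩ : Ω) = (ψ ⟨l, hlN⟩ : Ω) * z := ker_commute hy hPT hψl2 z hzP
    rw [he, ← mul_assoc, h6, mul_assoc, mul_assoc]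
    congr 1
    exact ((show Commute z l from h4).inv_right).eq
  have hek : e ∈ ker F T y N := by
    refine ⟨hPT heP, ?_⟩
    set cz : MulAut N := MulAut.conj (⟨z, hPN hzP⟩ : N)⁻¹
    have hczd : DispA F y N cz 1 := dispA_of_inner (hNT.trans hTS) hy.1
      (hPS (P.inv_mem hzP)) (comm_y hy (hPT (P.inv_mem hzP))) fun x => by simp [cz]
    refine Disp.congr (hczd.mul h3 (hPN heP)) (fun x => ?_) ?_
    · show (x : Ω) = ((cz (u x) : N) : Ω)
      simp [cz, hz x, mul_assoc]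
    · show e = 1 * ((cz ⟨e, hPN heP⟩ : N) : Ω)
      rw [one_mul]
      simp [cz, mul_assoc, ← hzc]
  have hψe' : (ψ ⟨e, hPN heP⟩ : Ω) = e := ih _ (by
      rw [hn]
      have := card_lt_of_lt hNT hPlt
      have := Subgroup.card_le_of_le hNT
      omega) hNc hψA hek (hPN heP) rfl
  have hbe : (b ⟨e, heP⟩ : Ω) = e := (hψP _ heP).symm.trans hψe'
  have hbl : b ⟨l, hlP⟩ = ⟨e, heP⟩ * ⟨l, hlP⟩ := by
    refine Subtype.ext ?_
    rw [Subgroup.coe_mul]
    show (b ⟨l, hlP⟩ : Ω) = e * l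
    rw [he, inv_mul_cancel_right]
    exact (hψP ⟨l, hlN⟩ hlP).symm
  have hpow : ∀ i : ℕ, (b ^ i) ⟨l, hlP⟩ = (⟨e, heP⟩ : P) ^ i * ⟨l, hlP⟩ := by
    intro i
    induction i with
    | zero => simp
    | succ i hi =>
      rw [pow_succ', MulAut.mul_apply, hi, map_mul, map_pow,
        show b ⟨e, heP⟩ = ⟨e, heP⟩ from Subtype.ext hbe, hbl, ← mul_assoc, pow_succ]
  obtain ⟨j, m, hm, ho⟩ := Nat.exists_eq_pow_mul_and_not_dvd
    (isOfFinOrder_of_finite b).orderOf_pos.ne' p (Fact.out : p.Prime).ne_one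
  have hbm : b ^ m ∈ Fx := by
    refine hpF _ (pow_mem hbA m) fun w => ?_
    refine ⟨j, ?_⟩
    obtain ⟨i, hi⟩ := Subgroup.mem_zpowers_iff.1 w.2
    refine Subtype.ext ?_
    rw [SubmonoidClass.coe_pow, ← hi]
    show ((b ^ m) ^ i) ^ p ^ j = 1
    rw [← zpow_natCast ((b ^ m) ^ i), ← zpow_mul, mul_comm, zpow_mul, zpow_natCast,
      ← pow_mul, mul_comm m, ← ho, pow_orderOf_eq_one, one_zpow]
  have hem : e ^ m = 1 := by
    have h5 := hbm.2 l hl hlP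
    rw [hpow] at h5
    simpa using h5
  have he1 := eq_one_of_pow hS (hPS heP) (((Fact.out : p.Prime).coprime_iff_not_dvd).2 hm).symm hem
  rw [hbl, Subgroup.coe_mul]
  show e * l = l
  rw [he1, one_mul]

end Cfsg.Agent.Tech.SmallOdd
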